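import Cfsg.Agent.H91.AHSpec
import Cfsg.Agent.H98.Coprime

/-! S4162, tower AH: slot KC. -/

set_option autoImplicit false

namespace H14.AH

open Subgroup H91.AH

theorem jobKC : JobKC := by
  intro hQ hB H _ _ hs z t hz ht tc c6 fr
  have Tc : zpowers t ≤ center H := zpowers_le.2 tc
  have : (zpowers t).Normal := ⟨fun a ha g => by
    rw [mem_center_iff.1 (Tc ha) g, mul_inv_cancel_right]; exact ha⟩
  set φ := QuotientGroup.mk' (zpowers t)
  have φs : Function.Surjective φ := QuotientGroup.mk'_surjective _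
  have φk : ∀ x, φ x = 1 ↔ x ∈ zpowers t := fun x => QuotientGroup.eq_one_iff x
  have cT : Nat.card (zpowers t) = 2 := by rw [Nat.card_zpowers, ht]
  have T2 : ∀ s ∈ zpowers t, s ^ 2 = 1 := fun s hs =>
    orderOf_dvd_iff_pow_eq_one.1 (ht ▸ orderOf_dvd_of_mem_zpowers hs)
  have zT : z ∉ zpowers t := fun k => by
    have := orderOf_dvd_of_mem_zpowers k
    rw [hz, ht] at this
    omega
  have oz : orderOf (φ z) = 3 :=
    ((Nat.dvd_prime Nat.prime_three).1 (hz ▸ orderOf_map_dvd φ z)).resolve_left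
      fun e => zT ((φk z).1 (orderOf_eq_one_iff.1 e))
  have c3 := hQ H _ φ φs (zpowers t) z (QuotientGroup.ker_mk' _).ge Tc (by rw [hz, cT]; decide)
  have cz : zpowers (φ z) = centralizer {φ z} :=
    eq_of_le_of_card_ge (zpowers_le.2 (mem_cent.2 (Commute.refl _))) (by
      rw [Nat.card_zpowers, oz]
      rw [cT] at c3
      change cc (φ z) ≤ 3
      omega)
  have kb : ∀ M : Subgroup H, M.Normal → t ∈ M → (∀ x ∈ M, x * x ∈ zpowers t) → M ≠ zpowers t →
      Nat.card M = 8 ∧ ∀ x ∈ M, x ∉ zpowers t → x * x = t := fun M n tM sq ne =>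
    hB H z t M hz ht tc c6 fr n tM sq (fun x hx y hy => by
      rw [show x * y * x⁻¹ * y⁻¹ = x * y * (x * y) * (y⁻¹ * (x * x)⁻¹ * y⁻¹⁻¹) * (y * y)⁻¹ by group]
      exact mul_mem (mul_mem (sq _ (mul_mem hx hy)) (Normal.conj_mem ‹_› _ (inv_mem (sq x hx)) _))
        (inv_mem (sq y hy))) ne
  refine (em _).imp_right fun nz => ?_
  have key : ∀ L : Subgroup H, L.Normal → zpowers t ≤ L → L ≠ zpowers t → ∃ M : Subgroup H, M.Normal ∧
      M ≤ L ∧ t ∈ M ∧ (∀ x ∈ M, x * x ∈ zpowers t) ∧ M ≠ zpowers t := fun L n TL ne => by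
    have := n.map φ φs
    obtain ⟨B, q, b1, b2, b3, qp, -, b4, b5, b6, -⟩ := exists_minN (L.map φ) inferInstance fun e =>
      ne (le_antisymm (((map_eq_bot_iff L).1 e).trans (QuotientGroup.ker_mk' _).le) TL)
    have nb : ¬ B.comap φ ≤ zpowers t := fun k => b3 (eq_bot_iff.2 fun b hb => by
      obtain ⟨b, rfl⟩ := φs b
      exact (φk b).2 (k hb))
    refine ⟨B.comap φ, b1.comap φ, (comap_mono b2).trans
      (comap_map_eq_self ((QuotientGroup.ker_mk' _).le.trans TL)).le,
      mem_comap.2 ((φk t).2 (mem_zpowers t) ▸ one_mem B), fun x hx => ?_, fun e => nb e.le⟩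
    by_cases q2 : q = 2
    · rw [← φk, map_mul, ← pow_two, ← q2, b5 _ hx]
    exfalso
    by_cases q3 : q = 3
    · subst q3
      have := Fact.mk qp
      obtain ⟨⟨m, m1, m2⟩, m3⟩ := ne_bot_iff_exists_ne_one.1 (H98.inf_centralizer_ne_bot b4
        (A := zpowers (φ z)) (.of_card (n := 1) (by rw [Nat.card_zpowers, oz, pow_one]))
        (le_normalizer_of_normal) b3)
      have mz : m ∈ zpowers (φ z) := cz ▸ mem_cent.2 (m2 _ (mem_zpowers _)).symm
      have om : orderOf m = 3 := orderOf_eq_prime (b5 m m1) fun e => m3 (Subtype.ext e)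
      have zB : φ z ∈ B := zpowers_le.2 m1
        ((eq_of_le_of_card_ge (zpowers_le.2 mz) (by rw [Nat.card_zpowers, Nat.card_zpowers, oz, om])).ge
          (mem_zpowers _))
      refine nz ⟨fun a ha g => ?_⟩
      obtain ⟨k, rfl⟩ := ha
      change g * z ^ k * g⁻¹ ∈ _
      rw [← conj_zpow]
      refine zpow_mem ?_ k
      obtain ⟨i, hi⟩ : φ (g * z * g⁻¹) ∈ zpowers (φ z) := cz ▸ mem_cent.2 (b6 _ (by
        rw [map_mul, map_mul, map_inv]; exact b1.conj_mem _ zB _) _ zB)
      have hs : (z ^ i)⁻¹ * (g * z * g⁻¹) ∈ zpowers t := by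
        rw [← φk, map_mul, map_inv, map_zpow, ← hi, inv_mul_cancel]
      generalize hy : (z ^ i)⁻¹ * (g * z * g⁻¹) = s at hs
      have e : g * z * g⁻¹ = z ^ i * s := by rw [← hy, mul_inv_cancel_left]
      have z3 : z ^ 3 = 1 := hz ▸ pow_orderOf_eq_one z
      have e3 := congrArg (· ^ 3) e
      simp only [conj_pow, z3, mul_one, mul_inv_cancel] at e3
      rw [Commute.mul_pow (mem_center_iff.1 (Tc hs) _), ← zpow_natCast, ← zpow_mul, mul_comm i,
        zpow_mul, zpow_natCast, z3, one_zpow, one_mul, pow_succ, T2 s hs, one_mul] at e3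
      rw [e, ← e3, mul_one]
      exact zpow_mem (mem_zpowers z) i
    have pq : ∀ a ∈ B.comap φ, a ^ q ∈ zpowers t := fun a ha => by rw [← φk, map_pow, b5 _ ha]
    have ab : IsMulCommutative (B.comap φ) := ⟨⟨fun a b => Subtype.ext (by
      have c : a * b * (a : H)⁻¹ * (b : H)⁻¹ ∈ zpowers t := by
        rw [← φk]
        simp only [map_mul, map_inv]
        rw [(b6 _ a.2 _ b.2).eq]
        group
      generalize hy : a * b * (a : H)⁻¹ * (b : H)⁻¹ = s at c
      have e : (b * (a : H)⁻¹ * (b : H)⁻¹) ^ q = ((a : H)⁻¹ * s) ^ q := by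
        rw [← hy]
        congr 1
        group
      rw [conj_pow, mem_center_iff.1 (Tc (pq _ (inv_mem a.2))) b, mul_inv_cancel_right,
        Commute.mul_pow (mem_center_iff.1 (Tc c) _), left_eq_mul] at e
      have := orderOf_eq_one_iff.1 (Nat.eq_one_of_dvd_coprimes
        ((Nat.coprime_primes qp Nat.prime_two).2 q2) (orderOf_dvd_of_pow_eq_one e)
        (orderOf_dvd_of_pow_eq_one (T2 s c)))
      rw [this, mul_inv_eq_one, mul_inv_eq_iff_eq_mul] at hy
      exact hy)⟩⟩
    have co : (Nat.card (B.comap φ)).Coprime (orderOf z) := by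
      rw [hz, Nat.coprime_comm, Nat.prime_three.coprime_iff_not_dvd]
      intro k
      obtain ⟨u, hu⟩ := exists_prime_orderOf_dvd_card' 3 (hp := ⟨Nat.prime_three⟩) k
      have := orderOf_dvd_of_pow_eq_one ((pow_mul (u : H) q 2).trans (T2 _ (pq _ u.2)))
      rw [orderOf_coe, hu] at this
      exact q3 ((Nat.prime_dvd_prime_iff_eq Nat.prime_three qp).1
        ((Nat.Coprime.dvd_mul_right (by decide)).1 this)).symm
    have := b1.comap φ
    refine nb fun a ha => (φk a).1 ?_
    have m : φ a ∈ zpowers (φ z) :=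
      cz ▸ mem_cent.2 ((fr _ ab co (le_normalizer_of_normal (mem_top z)) a ha).map φ).symm
    exact orderOf_eq_one_iff.1 (Nat.eq_one_of_dvd_coprimes
      ((Nat.coprime_primes qp Nat.prime_three).2 q3) (orderOf_dvd_of_pow_eq_one (b5 _ ha))
      (oz ▸ orderOf_dvd_of_mem_zpowers m))
  obtain ⟨M, n, -, tM, sq, ne⟩ := key ⊤ inferInstance le_top fun e => zT (e ▸ mem_top z)
  obtain ⟨c8, s8⟩ := kb M n tM sq ne
  refine ⟨M, n, tM, c8, s8, by_contra fun nc => ?_⟩
  obtain ⟨M', n', l', tM', sq', ne'⟩ := key (centralizer M) inferInstance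
    (Tc.trans (center_le_centralizer _)) fun e => nc e.le
  have TM := zpowers_le.2 tM
  have c8' := (kb (M ⊔ M') inferInstance (mem_sup_left tM) (fun x hx => by
    obtain ⟨a, ha, b, hb, rfl⟩ := mem_sup_of_normal_right.1 hx
    rw [show a * b * (a * b) = a * (b * a) * b by group, ← l' hb a ha,
      show a * (a * b) * b = a * a * (b * b) by group]
    exact mul_mem (sq a ha) (sq' b hb)) fun e => ne (le_antisymm (le_sup_left.trans e.le) TM)).1
  have e : M' = M := (eq_of_le_of_card_ge le_sup_right (by rw [c8', (kb M' n' tM' sq' ne').1])).trans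
    (eq_of_le_of_card_ge le_sup_left (by rw [c8', c8])).symm
  subst e
  obtain ⟨x, hx, xT⟩ := SetLike.exists_of_lt (lt_of_le_of_ne TM ne.symm)
  have i2 : ((zpowers t).subgroupOf M').index = 2 := index_eq_two_iff'.2 ⟨⟨x, hx⟩, fun y => by
    by_cases k : (y : H) ∈ zpowers t
    · exact .inr ⟨k, fun k' => xT ((mul_mem_cancel_right k).1 k')⟩
    refine .inl ⟨by_contra fun k' => ?_, k⟩
    have := s8 _ (mul_mem hx y.2) k'
    rw [show x * y * (x * y) = x * (y * x) * y by group, l' hx y y.2,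
      show x * (x * y) * y = x * x * (y * y) by group, s8 x hx xT, s8 y y.2 k, mul_eq_left] at this
    rw [this, orderOf_one] at ht
    omega⟩
  have := ((zpowers t).subgroupOf M').card_mul_index
  rw [i2, c8, Nat.card_congr (subgroupOfEquivOfLe TM).toEquiv, cT] at this
  omega

end H14.AH
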