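/- The group `E₈(3)` has no subgroup `PSL₂(41)`. -/
import Cfsg.Agent.H14.E8Val

set_option autoImplicit false

namespace H14.E8

open Matrix H56.SL2M
open scoped MatrixGroups

theorem no_l241 {F : Type*} [Field F] [Fintype F] (h : Fintype.card F = 41) (H : Subgroup G8) :
    IsEmpty (↥H ≃* PSL(2, F)) := ⟨fun e => by
  have : Fact (Nat.Prime 41) := ⟨by norm_num⟩
  have : CharP F 41 := charP_of_card_eq_prime h
  let ψ : SL(2, F) →* G8 := H.subtype.comp (e.symm.toMonoidHom.comp (QuotientGroup.mk' _))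
  have h2 : (2 : F) ≠ 0 := fun e => by
    have := (CharP.cast_eq_zero_iff F 41 2).1 (by exact_mod_cast e)
    omega
  have ho : orderOf (ψ (xx 1)) = 41 := by
    refine orderOf_eq_prime ?_ fun e1 => ?_
    · rw [← map_pow, xx_pow, CharP.cast_eq_zero, zero_mul, xx_zero, map_one]
    · have h1 : (QuotientGroup.mk (xx (1 : F)) : PSL(2, F)) = 1 :=
        (map_eq_one_iff _ e.symm.injective).1 (Subtype.ext e1)
      obtain ⟨r, -, h3⟩ := Matrix.SpecialLinearGroup.mem_center_iff.1
        ((QuotientGroup.eq_one_iff _).1 h1)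
      have := congrFun (congrFun h3 0) 1
      simp [xx_coe] at this
  refine not_isConj41 ho (isConj_iff.2 ⟨ψ (hh (Units.mk0 2 h2)), ?_⟩)
  rw [← map_mul, hh_xx, map_mul, mul_inv_cancel_right, ← map_pow, xx_pow]
  norm_num⟩

end H14.E8
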