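import Cfsg.Agent.H22.FlagCent
import Cfsg.Agent.H22.Weights
import Cfsg.Agent.H2.MinNormal
import Cfsg.Agent.H4.HallBasic

/-!
Fixed spaces of an element of prime order on graded spaces; fixed point ratios in solvable groups.
-/

set_option autoImplicit false

namespace H14.HF

open Module

theorem orbit_reps {T : Type*} [Finite T] {p : ℕ} [hp : Fact p.Prime] (π : Equiv.Perm T)
    (hπ : π ^ p = 1) : ∃ R : Finset T, (∀ t, ∃ r ∈ R, ∃ i : ℕ, (π ^ i) r = t) ∧
      p * R.card + Nat.card {t // π t = t} ≤ Nat.card T + p * Nat.card {t // π t = t} := by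
  classical
  letI := Fintype.ofFinite T
  by_cases h1 : π = 1
  · refine ⟨Finset.univ, fun t => ⟨t, Finset.mem_univ _, 0, rfl⟩, ?_⟩
    have : Nat.card {t // π t = t} = Nat.card T :=
      Nat.card_congr (Equiv.subtypeUnivEquiv fun t => by rw [h1]; rfl)
    rw [this, Finset.card_univ, Nat.card_eq_fintype_card]; omega
  have ho : orderOf π = p := orderOf_eq_prime hπ h1
  set P := Subgroup.zpowers π
  have hP : Nat.card P = p := by rw [Nat.card_zpowers, ho]
  letI : Fintype (MulAction.orbitRel.Quotient P T) := Fintype.ofFinite _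
  refine ⟨Finset.univ.image (Quotient.out : MulAction.orbitRel.Quotient P T → T), fun t => ?_, ?_⟩
  · refine ⟨(Quotient.mk (MulAction.orbitRel P T) t).out, Finset.mem_image_of_mem _
      (Finset.mem_univ _), ?_⟩
    obtain ⟨g, hg⟩ := (MulAction.orbitRel P T).symm (Quotient.mk_out (s := MulAction.orbitRel P T) t)
    obtain ⟨i, hi⟩ := mem_powers_iff_mem_zpowers.2 g.2
    exact ⟨i, by simp only at hi hg; rw [hi]; exact hg⟩
  · have hb := MulAction.sum_card_fixedBy_eq_card_orbits_mul_card_group P T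
    rw [← Finset.add_sum_erase _ _ (Finset.mem_univ 1)] at hb
    have h2 : ∑ g ∈ Finset.univ.erase (1 : P), Fintype.card (MulAction.fixedBy T g) ≤
        (p - 1) * Nat.card {t // π t = t} := by
      have : (Finset.univ.erase (1 : P)).card = p - 1 := by
        rw [Finset.card_erase_of_mem (Finset.mem_univ _), Finset.card_univ,
          ← Nat.card_eq_fintype_card, hP]
      rw [← this, ← smul_eq_mul]
      refine Finset.sum_le_card_nsmul _ _ _ fun g hg => ?_
      rw [← Nat.card_eq_fintype_card]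
      refine Nat.card_le_card_of_injective (fun t => (⟨t.1, ?_⟩ : {t // π t = t})) fun a b h =>
        Subtype.ext (congrArg (fun z : {t // π t = t} => z.1) h)
      have : (⟨π, Subgroup.mem_zpowers π⟩ : P) ∈ MulAction.stabilizer P t.1 :=
        (Subgroup.zpowers_le.2 (t.2 : g ∈ MulAction.stabilizer P t.1))
          (mem_zpowers_of_prime_card hP (Finset.ne_of_mem_erase hg))
      exact this
    have h3 : Fintype.card (MulAction.fixedBy T (1 : P)) = Nat.card T := by simp
    have h4 := Finset.card_image_le (s := Finset.univ)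
      (f := (Quotient.out : MulAction.orbitRel.Quotient P T → T))
    rw [Finset.card_univ] at h4
    rw [h3, ← Nat.card_eq_fintype_card (α := P), hP] at hb
    obtain ⟨m, rfl⟩ : ∃ m, p = m + 1 := ⟨p - 1, by have := hp.out.pos; omega⟩
    simp only [Nat.add_sub_cancel] at h2
    nlinarith

variable {K : Type*} [Field K]

theorem graded {E T : Type*} [AddCommGroup E] [Module K E] [FiniteDimensional K E] [Finite T]
    {p : ℕ} [hp : Fact p.Prime] (U : T → Submodule K E) (hi : iSupIndep U) (hs : ⨆ t, U t = ⊤)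
    (b : ℕ) (hb : ∀ t, finrank K (U t) = b) (φ : E →ₗ[K] E) (π : Equiv.Perm T) (hπ : π ^ p = 1)
    (hφ : ∀ t, ∀ v ∈ U t, φ v ∈ U (π t)) (C : Submodule K E) (hC : ∀ c ∈ C, φ c = c) :
    finrank K E = Nat.card T * b ∧ p * finrank K C + Nat.card {t // π t = t} * b ≤
      (Nat.card T + p * Nat.card {t // π t = t}) * b := by
  classical
  letI := Fintype.ofFinite T
  have hI := DirectSum.isInternal_submodule_of_iSupIndep_of_iSup_eq_top hi hs
  let e := LinearEquiv.ofBijective (DirectSum.coeLinearMap U) hI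
  refine ⟨by rw [← e.finrank_eq, Module.finrank_directSum]; simp [hb], ?_⟩
  let pr : (t : T) → E →ₗ[K] U t := fun t => DirectSum.component K T (fun t => U t) t ∘ₗ e.symm
  have p1 : ∀ t, ∀ v ∈ U t, (pr t v : E) = v := fun t v hv =>
    congrArg Subtype.val (hI.ofBijective_coeLinearMap_of_mem hv)
  have p2 : ∀ s t, s ≠ t → ∀ v ∈ U s, pr t v = 0 := fun s t h v hv =>
    hI.ofBijective_coeLinearMap_of_mem_ne h hv
  have p3 : ∀ t v, (pr (π t) (φ v) : E) = φ (pr t v) := fun t v => by
    have hv : v ∈ ⨆ t, U t := hs ▸ Submodule.mem_top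
    induction hv using Submodule.iSup_induction' with
    | mem s v hv =>
      by_cases h : s = t
      · subst h; rw [p1 _ _ (hφ _ _ hv), p1 _ _ hv]
      · rw [p2 _ _ (fun h' => h (π.injective h')) _ (hφ _ _ hv), p2 _ _ h _ hv]; simp
    | zero => simp
    | add x y _ _ hx hy => simp [hx, hy]
  obtain ⟨R, hR, hc⟩ := orbit_reps π hπ
  let ψ : C →ₗ[K] ((r : R) → U r) := LinearMap.pi fun r => pr r ∘ₗ C.subtype
  have hψ : Function.Injective ψ := by
    rw [injective_iff_map_eq_zero]
    intro c hc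
    have h0 : ∀ i : ℕ, ∀ r ∈ R, pr ((π ^ i) r) c = 0 := fun i r hr => by
      induction i with
      | zero => exact congrFun hc ⟨r, hr⟩
      | succ i ih =>
        have := p3 ((π ^ i) r) c
        rw [hC c c.2, ih] at this
        rw [pow_succ']
        exact Subtype.ext (this.trans (map_zero φ))
    refine Subtype.ext (e.symm.injective ?_)
    ext t
    obtain ⟨r, hr, i, rfl⟩ := hR t
    rw [ZeroMemClass.coe_zero, map_zero]
    exact congrArg Subtype.val (h0 i r hr)
  have h1 := LinearMap.finrank_le_finrank_of_injective hψ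
  rw [Module.finrank_pi_fintype] at h1
  simp only [hb, Finset.sum_const, Finset.card_univ, Fintype.card_coe, smul_eq_mul] at h1
  nlinarith [Nat.mul_le_mul_right b hc, Nat.mul_le_mul_left p h1]

/-- lower bound for the centralizer of an element of order dividing `p` -/
theorem cent_lower [IsAlgClosed K] {V : Type*} [AddCommGroup V] [Module K V] [FiniteDimensional K V]
    (y : Module.End K V) {m : ℕ} (hy : y ^ (m + 1) = 1) :
    m * finrank K (LinearMap.ker (y - 1)) ^ 2 + (finrank K V - finrank K (LinearMap.ker (y - 1))) ^ 2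
      ≤ m * finrank K (H22.centEnd y) := by
  classical
  open Polynomial in
  let g : K[X] := ∑ i ∈ Finset.range (m + 1), X ^ i
  have hgm : g.Monic := Polynomial.monic_geom_sum_X (Nat.succ_ne_zero m)
  have hgd : g.natDegree = m := by
    have h1 : (g * (Polynomial.X - 1)).natDegree = m + 1 := by
      rw [geom_sum_mul, ← Polynomial.C_1, Polynomial.natDegree_X_pow_sub_C]
    rw [← Polynomial.C_1, hgm.natDegree_mul (Polynomial.monic_X_sub_C 1),
      Polynomial.natDegree_X_sub_C] at h1
    omega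
  have hs := (IsAlgClosed.splits g).eq_prod_roots_of_monic hgm
  have hc := (IsAlgClosed.splits g).natDegree_eq_card_roots
  obtain ⟨l, hl⟩ := Quotient.exists_rep g.roots
  have hl' : g.roots = (l : Multiset K) := hl.symm
  have hlen : l.length = m := by rw [← hgd, hc, hl']; simp
  let μ : ℕ → K := fun j => (1 :: l).getD j 0
  have h2 : (∏ j ∈ Finset.range m, (Polynomial.X - Polynomial.C (μ (j + 1)))) = g := by
    rw [hs, hl', ← hlen]
    simp only [Multiset.map_coe, Multiset.prod_coe]
    rw [← Fin.prod_univ_eq_prod_range (fun j => Polynomial.X - Polynomial.C (μ (j + 1))),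
      ← List.prod_ofFn]
    congr 1
    apply List.ext_getElem
    · simp
    · intro i h1 h2
      have : i < l.length := by simpa using h1
      simp [μ, this]
  let F : ℕ → Submodule K V := fun k => LinearMap.ker
    (Polynomial.aeval y (∏ j ∈ Finset.range k, (Polynomial.X - Polynomial.C (μ j))))
  have hstep : ∀ j v, v ∈ F (j + 1) ↔ y v - μ j • v ∈ F j := by
    intro j v
    simp only [F, LinearMap.mem_ker, Finset.prod_range_succ, map_mul, Module.End.mul_apply]
    simp [Module.algebraMap_end_apply]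
  have hmono : Monotone F := by
    refine monotone_nat_of_le_succ fun j v hv => ?_
    simp only [F, LinearMap.mem_ker] at hv ⊢
    rw [Finset.prod_range_succ, mul_comm, map_mul, Module.End.mul_apply, hv, map_zero]
  have h0 : F 0 = ⊥ := by simp [F, Module.End.one_eq_id]
  have h1 : F 1 = LinearMap.ker (y - 1) := by simp [F, μ]
  have ht : F (m + 1) = ⊤ := by
    simp only [F]
    rw [Finset.prod_range_succ', h2]
    have : μ 0 = 1 := rfl
    rw [this, Polynomial.C_1, geom_sum_mul]
    simp [hy]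
  have h3 := H22.sum_sq_le_finrank_centEnd y (m + 1) F μ h0 hmono fun j v hv => (hstep j v).1 hv
  have h4 : ∀ k, ∑ j ∈ Finset.range k, (finrank K (F (j + 1 + 1)) - finrank K (F (j + 1))) =
      finrank K (F (k + 1)) - finrank K (F 1) := by
    intro k
    induction k with
    | zero => simp
    | succ k ih =>
      rw [Finset.sum_range_succ, ih]
      have a1 := Submodule.finrank_mono (hmono (Nat.le_succ (k + 1)))
      have a2 := Submodule.finrank_mono (hmono (Nat.le_add_left 1 k))
      simp only [Nat.succ_eq_add_one] at a1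
      omega
  have h5 := H22.sq_sum_le_mul_sum_sq m fun j => finrank K (F (j + 1 + 1)) - finrank K (F (j + 1))
  rw [h4, ht, finrank_top, h1] at h5
  rw [Finset.sum_range_succ', h0, zero_add, h1, finrank_bot, Nat.sub_zero] at h3
  nlinarith [Nat.mul_le_mul_left m h3]

/-- fixed point ratio in a solvable group -/
theorem fpr {G : Type*} [Group G] [Finite G] [Group.IsSolvable G] {x : G} {p : ℕ} (hp : Odd p)
    (hx : x ^ p = 1) (hgen : Subgroup.normalClosure {x} = ⊤) {H : Subgroup G} (hH : H ≠ ⊤) :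
    3 * Nat.card {t : G ⧸ H // x • t = t} ≤ Nat.card (G ⧸ H) := by
  classical
  have key : ∀ M : Subgroup G, Nat.card {t : G ⧸ M // x • t = t} * Nat.card M =
      Nat.card {g : G // g⁻¹ * x * g ∈ M} := fun M => by
    rw [← Nat.card_prod]
    refine (Nat.card_congr (((Subgroup.groupEquivQuotientProdSubgroup (s := M)).subtypeEquiv
      (q := fun a => x • a.1 = a.1) fun g => ?_).trans
      (Equiv.prodSubtypeFstEquivSubtypeProd (p := fun t : G ⧸ M => x • t = t)))).symm
    change _ ↔ ((x * g : G) : G ⧸ M) = g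
    rw [eq_comm, QuotientGroup.eq, mul_assoc]
  obtain ⟨M, hM, hle⟩ := (eq_top_or_exists_le_coatom H).resolve_left hH
  suffices h : 3 * Nat.card {g : G // g⁻¹ * x * g ∈ M} ≤ Nat.card G by
    have h1 : Nat.card {g : G // g⁻¹ * x * g ∈ H} ≤ Nat.card {g : G // g⁻¹ * x * g ∈ M} :=
      Nat.card_le_card_of_injective (fun g => ⟨g.1, hle g.2⟩) fun a b h => Subtype.ext
        (congrArg (fun z : {g : G // g⁻¹ * x * g ∈ M} => z.1) h)
    refine Nat.le_of_mul_le_mul_right ?_ (Nat.card_pos (α := H))
    rw [mul_assoc, key, ← Subgroup.card_eq_card_quotient_mul_card_subgroup]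
    omega
  by_cases h0 : ∃ g₀ : G, g₀⁻¹ * x * g₀ ∈ M
  swap
  · haveI : IsEmpty {g : G // g⁻¹ * x * g ∈ M} := ⟨fun g => h0 ⟨g.1, g.2⟩⟩
    simp
  obtain ⟨g₀, hy⟩ := h0
  set y := g₀⁻¹ * x * g₀ with hydef
  have hyp : y ^ p = 1 := by
    have : y = g₀⁻¹ * x * g₀⁻¹⁻¹ := by rw [inv_inv]
    rw [this, conj_pow, hx]; simp
  have hygen : ∀ N : Subgroup G, N.Normal → y ∈ N → N = ⊤ := fun N hN h => by
    rw [eq_top_iff, ← hgen]
    refine Subgroup.normalClosure_le_normal (Set.singleton_subset_iff.2 ?_)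
    have := hN.conj_mem _ h g₀
    simpa [hydef, mul_assoc] using this
  obtain ⟨L, ⟨hLn, hLM⟩, hmin⟩ := H2.exists_minimal_subgroup (fun L : Subgroup G => L.Normal ∧ ¬ L ≤ M)
    ⟨⊤, inferInstance, fun h => hM.1 (top_le_iff.1 h)⟩
  have hL' : ∀ a ∈ L, ∀ b ∈ L, a * b * a⁻¹ * b⁻¹ ∈ M := fun a ha b hb => by
    have h1 : ⁅L, L⁆ < L := H2.commutator_lt_of_isSolvable fun h => hLM (h ▸ bot_le)
    have h2 : ⁅L, L⁆ ≤ M := by_contra fun h => h1.ne (hmin _ ⟨inferInstance, h⟩ h1.le)
    exact h2 (Subgroup.commutator_mem_commutator ha hb)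
  have htop : L ⊔ M = ⊤ := hM.2 _ (lt_of_le_of_ne le_sup_right fun h => hLM (h ▸ le_sup_left))
  have hdec : ∀ g : G, ∃ l ∈ L, ∃ m ∈ M, l * m = g := fun g =>
    Subgroup.mem_sup_of_normal_left.1 (htop ▸ Subgroup.mem_top g)
  have hD : (L ⊓ M).Normal := ⟨fun d hd g => Subgroup.mem_inf.2 ⟨hLn.conj_mem _ hd.1 g, by
    obtain ⟨l, hl, m, hm, rfl⟩ := hdec g
    have h1 : m * d * m⁻¹ ∈ M := mul_mem (mul_mem hm (Subgroup.mem_inf.1 hd).2) (inv_mem hm)
    have := mul_mem (hL' l hl _ (hLn.conj_mem _ hd.1 m)) h1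
    convert this using 1; group⟩⟩
  let C : Subgroup G :=
    { carrier := {l | l ∈ L ∧ l⁻¹ * y * l ∈ M}
      mul_mem' := fun {a b} ha hb => ⟨mul_mem ha.1 hb.1, by
        have h1 : a⁻¹ * y * a * y⁻¹ ∈ L ⊓ M := Subgroup.mem_inf.2 ⟨by
          have := mul_mem (inv_mem ha.1) (hLn.conj_mem _ ha.1 y)
          simpa only [mul_assoc] using this, mul_mem ha.2 (inv_mem hy)⟩
        have := mul_mem (Subgroup.mem_inf.1 (hD.conj_mem _ h1 b⁻¹)).2 hb.2
        convert this using 1; group⟩
      one_mem' := ⟨one_mem _, by simpa using hy⟩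
      inv_mem' := fun {a} ha => ⟨inv_mem ha.1, by
        have h1 : a⁻¹ * y * a * y⁻¹ ∈ L ⊓ M := Subgroup.mem_inf.2 ⟨by
          have := mul_mem (inv_mem ha.1) (hLn.conj_mem _ ha.1 y)
          simpa only [mul_assoc] using this, mul_mem ha.2 (inv_mem hy)⟩
        have := mul_mem (inv_mem (Subgroup.mem_inf.1 (hD.conj_mem _ h1 a)).2) hy
        convert this using 1; group⟩ }
  have hCL : C ≤ L := fun _ h => h.1
  have hDC : L ⊓ M ≤ C := fun d hd => ⟨hd.1, mul_mem (mul_mem
    (inv_mem (Subgroup.mem_inf.1 hd).2) hy) (Subgroup.mem_inf.1 hd).2⟩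
  -- index of `C` in `L` is at least three
  have hne : ¬ L ≤ C := fun h => by
    have h1 : y ∈ M.normalCore := fun g => by
      obtain ⟨l, hl, m, hm, e⟩ := hdec g⁻¹
      have := mul_mem (mul_mem (inv_mem hm) (h hl).2) hm
      have hg : g = m⁻¹ * l⁻¹ := by rw [← mul_inv_rev, e, inv_inv]
      rw [hg]; convert this using 1; group
    exact hM.1 (top_le_iff.1 ((hygen _ inferInstance h1) ▸ M.normalCore_le))
  have h3 : 3 ≤ C.relIndex L := by
    have a0 : C.relIndex L ≠ 0 := Subgroup.FiniteIndex.index_ne_zero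
    have a1 : C.relIndex L ≠ 1 := fun h => hne (Subgroup.relIndex_eq_one.1 h)
    have a2 : C.relIndex L ≠ 2 := fun h => by
      obtain ⟨w, hwL, hwC⟩ := SetLike.not_le_iff_exists.1 hne
      let π := QuotientGroup.mk' (L ⊓ M)
      have hπ : ∀ a b, π a = π b ↔ a⁻¹ * b ∈ L ⊓ M := fun a b => QuotientGroup.eq
      have hfix : ∀ c ∈ C, π y * π c = π c * π y := fun c hc => by
        rw [← map_mul, ← map_mul, hπ, Subgroup.mem_inf]
        refine ⟨?_, ?_⟩
        · have := mul_mem (inv_mem hc.1) (hLn.conj_mem _ hc.1 y⁻¹)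
          convert this using 1; group
        · have := mul_mem (inv_mem hc.2) hy
          convert this using 1; group
      have hcomm : ∀ a ∈ L, ∀ b ∈ L, π a * π b = π b * π a := fun a ha b hb => by
        rw [← map_mul, ← map_mul, hπ, Subgroup.mem_inf]
        refine ⟨mul_mem (inv_mem (mul_mem ha hb)) (mul_mem hb ha), ?_⟩
        have := hL' _ (inv_mem hb) _ (inv_mem ha)
        convert this using 1; group
      have hw' : y * w * y⁻¹ ∈ L := hLn.conj_mem _ hwL y
      have hw'C : y * w * y⁻¹ ∉ C := fun hc => hwC ⟨hwL, by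
        have := mul_mem (mul_mem (inv_mem hy) hc.2) hy
        convert this using 1; group⟩
      have hc : w⁻¹ * (y * w * y⁻¹) ∈ C := by
        have := (Subgroup.mul_mem_iff_of_index_two h (a := (⟨w, hwL⟩ : L)⁻¹) (b := ⟨_, hw'⟩)).2
          (iff_of_false (fun h' => hwC (inv_mem_iff.1 h')) hw'C)
        exact this
      have hw2 : w * w ∈ C := Subgroup.mul_self_mem_of_index_two h (⟨w, hwL⟩ : L)
      set c := w⁻¹ * (y * w * y⁻¹)
      have e1 : π y * π w = π w * π c * π y := by
        simp only [← map_mul, c]; congr 1; group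
      have e2 : ∀ n : ℕ, π y ^ n * π w = π w * π c ^ n * π y ^ n := fun n => by
        induction n with
        | zero => simp
        | succ n ih =>
          rw [pow_succ', mul_assoc, ih, ← mul_assoc, ← mul_assoc, e1, mul_assoc _ (π y),
            (Commute.pow_right (hfix c hc) n).eq, pow_succ' (π c)]
          simp only [mul_assoc]
      have e3 : π c ^ p = 1 := by
        have := e2 p
        rwa [← map_pow, hyp, map_one, one_mul, mul_one, left_eq_mul] at this
      have e4 : π c ^ 2 = 1 := by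
        have := hfix _ hw2
        rw [map_mul π w w, ← mul_assoc, e1, mul_assoc _ (π y), e1, ← mul_assoc, mul_left_inj,
          mul_assoc, mul_right_inj, ← mul_assoc, ← hcomm w hwL c (hCL hc), mul_assoc,
          mul_eq_left] at this
        rw [sq, this]
      have e5 : π c = 1 := by
        obtain ⟨k, rfl⟩ := hp
        rwa [pow_succ, pow_mul, e4, one_pow, one_mul] at e3
      refine hwC ⟨hwL, ?_⟩
      have := mul_mem (Subgroup.mem_inf.1 ((QuotientGroup.eq_one_iff _).1 e5)).2 hy
      simpa [c, mul_assoc] using this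
    omega
  -- count
  have hS : Nat.card {g : G // g⁻¹ * x * g ∈ M} ≤ Nat.card (C ⧸ (L ⊓ M).subgroupOf C) * Nat.card M := by
    rw [← Nat.card_prod]
    refine Nat.card_le_card_of_surjective (fun a : (C ⧸ (L ⊓ M).subgroupOf C) × M =>
      (⟨g₀ * a.1.out * a.2, ?_⟩ : {g : G // g⁻¹ * x * g ∈ M})) fun g => ?_
    · have := mul_mem (mul_mem (inv_mem a.2.2) a.1.out.2.2) a.2.2
      convert this using 1; simp only [hydef]; group
    · obtain ⟨l, hl, m, hm, e⟩ := hdec (g₀⁻¹ * g.1)
      have hlC : l ∈ C := ⟨hl, by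
        have := mul_mem (mul_mem hm g.2) (inv_mem hm)
        have hl : l = g₀⁻¹ * g.1 * m⁻¹ := by rw [← e]; group
        rw [hl]; convert this using 1; simp only [hydef]; group⟩
      obtain ⟨d, hd⟩ := QuotientGroup.mk_out_eq_mul ((L ⊓ M).subgroupOf C) ⟨l, hlC⟩
      refine ⟨((⟨l, hlC⟩ : C), ⟨(d : C)⁻¹ * m, mul_mem (inv_mem
        (Subgroup.mem_inf.1 (Subgroup.mem_subgroupOf.1 d.2)).2) hm⟩), Subtype.ext ?_⟩
      simp only [hd, Subgroup.coe_mul, Subgroup.coe_inv]
      rw [mul_assoc, mul_assoc l, mul_inv_cancel_left, e, mul_inv_cancel_left]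
  have hG : Nat.card G = (L ⊓ M).relIndex L * Nat.card M := by
    have h1 := H4.card_sup_mul_card_inf L M
    have h2 := Subgroup.card_mul_index ((L ⊓ M).subgroupOf L)
    rw [Nat.card_congr (Subgroup.subgroupOfEquivOfLe inf_le_left).toEquiv] at h2
    rw [htop, Subgroup.card_top, ← h2] at h1
    refine Nat.eq_of_mul_eq_mul_right (Nat.card_pos (α := ↥(L ⊓ M))) ?_
    rw [h1, Subgroup.relIndex]; ring
  rw [hG, ← Subgroup.relIndex_mul_relIndex _ _ _ hDC hCL]
  change _ ≤ (L ⊓ M).relIndex C * Nat.card M at hS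
  nlinarith [Nat.mul_le_mul_right ((L ⊓ M).relIndex C * Nat.card M) h3]

end H14.HF
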