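import Cfsg.Agent.H14.HalfFixA
import Cfsg.Agent.H11.QuadAct
import Cfsg.Agent.H18.PSolv
import Cfsg.Agent.H2.Core

/-!
Index of the fixed points of a generating element of prime order on a chief factor.
-/

set_option autoImplicit false

namespace H14.HF

open Cfsg
open scoped commutatorElement

theorem idx {G : Type*} [Group G] [Finite G] [Group.IsSolvable G] {x : G} {p r : ℕ}
    [hp : Fact p.Prime] [hr : Fact r.Prime] (hp3 : 3 < p) (hx : x ^ p = 1)
    (hgen : Subgroup.normalClosure {x} = ⊤) (W : Subgroup G) [hWn : W.Normal]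
    (hc : ∀ a ∈ W, ∀ b ∈ W, a * b = b * a) (hW : IsPGroup r W)
    (hmin : ∀ M : Subgroup G, M.Normal → M ≤ W → M = ⊥ ∨ M = W) (hZ : ¬ W ≤ Subgroup.center G) :
    ∃ i, Nat.card W = Nat.card {w : W // MulAut.conjNormal x w = w} * i ∧
      4 * (p - 1) ^ 2 < i * (p - 2) ^ 2 := by
  classical
  have hp5 : 5 ≤ p := by
    by_contra h
    obtain rfl : p = 4 := by omega
    exact absurd hp.out (by decide)
  set C := (Subgroup.centralizer ({x} : Set G)).subgroupOf W
  have hC : ∀ w : W, w ∈ C ↔ MulAut.conjNormal x w = w := fun w => by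
    rw [Subgroup.mem_subgroupOf, Subgroup.mem_centralizer_singleton_iff, Subtype.ext_iff,
      MulAut.conjNormal_apply, mul_inv_eq_iff_eq_mul, eq_comm]
  have hf : Nat.card {w : W // MulAut.conjNormal x w = w} = Nat.card C :=
    Nat.card_congr (Equiv.subtypeEquivRight fun w => (hC w).symm)
  have hcard := C.card_mul_index
  refine ⟨C.index, by rw [hf, hcard], ?_⟩
  have hall : ∀ N : Subgroup G, N.Normal → x ∈ N → ∀ g, g ∈ N := fun N hN h g =>
    (Subgroup.normalClosure_le_normal (Set.singleton_subset_iff.2 h) :
      Subgroup.normalClosure {x} ≤ N) (hgen ▸ Subgroup.mem_top g)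
  have h1 : C.index ≠ 1 := fun h => hZ fun w hw => Subgroup.mem_center_iff.2 fun g =>
    (hall (Subgroup.centralizer (W : Set G)) inferInstance (fun v hv =>
      Subgroup.mem_centralizer_singleton_iff.1 (Subgroup.mem_subgroupOf.1
        ((Subgroup.index_eq_one.1 h).symm ▸ Subgroup.mem_top (⟨v, hv⟩ : W) : (⟨v, hv⟩ : W) ∈ C)))
      g w hw).symm
  obtain ⟨a, ha⟩ : ∃ a, C.index = r ^ a := by
    obtain ⟨k, hk⟩ := hW.exists_card_eq
    obtain ⟨a, -, ha⟩ := (Nat.dvd_prime_pow hr.out).1 (hk ▸ C.index_dvd_card)
    exact ⟨a, ha⟩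
  have ha0 : a ≠ 0 := fun h => h1 (by rw [ha, h, pow_zero])
  have hmod : Nat.card W ≡ Nat.card C [MOD p] := by
    letI := Fintype.ofFinite W
    have := Equiv.Perm.card_fixedPoints_modEq (f := (MulAut.conjNormal x : W → W)) (p := p) (n := 1)
      (by
        rw [pow_one]
        funext w
        change (MulAut.conjNormal x : W → W)^[p] w = w
        have : ∀ n : ℕ, (MulAut.conjNormal x : W → W)^[n] w = MulAut.conjNormal (x ^ n) w :=
          fun n => by
            induction n with
            | zero => simp
            | succ n ih => rw [Function.iterate_succ_apply', ih, pow_succ', map_mul]; rfl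
        rw [this, hx, map_one]; rfl)
    rw [← hf, Nat.card_eq_fintype_card, Nat.card_eq_fintype_card]
    convert this
    rfl
  have big : 8 ≤ C.index ∨ (7 ≤ p ∧ 6 ≤ C.index) := by
    by_cases hrp : r = p
    · subst hrp
      by_cases ha1 : a = 1
      swap
      · left
        rw [ha]
        calc 8 ≤ 5 ^ 2 := by norm_num
          _ ≤ r ^ 2 := Nat.pow_le_pow_left hp5 2
          _ ≤ r ^ a := Nat.pow_le_pow_right hr.out.pos (by omega)
      exfalso
      rw [ha1, pow_one] at ha
      haveI hCn : C.Normal := ⟨fun c hc' g => by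
        rwa [show g * c * g⁻¹ = c from Subtype.ext (by
          simp only [Subgroup.coe_mul, Subgroup.coe_inv]
          rw [hc _ g.2 _ c.2, mul_inv_cancel_right])]⟩
      have q1 : ∀ b ∈ Subgroup.zpowers x, ∀ w : W, (MulAut.conjNormal b w)⁻¹ * w ∈ C := by
        intro b hb
        have hbx : Commute x b := by obtain ⟨n, rfl⟩ := hb; exact (Commute.refl x).zpow_right n
        have hbp : b ^ r = 1 := by
          obtain ⟨n, rfl⟩ := hb
          rw [← zpow_natCast, ← zpow_mul, mul_comm, zpow_mul, zpow_natCast, hx, one_zpow]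
        let α : MulAut W := MulAut.conjNormal b
        have hα : C ≤ C.comap α.toMonoidHom := fun c hc' => by
          rw [Subgroup.mem_comap, hC]
          change (MulAut.conjNormal x * MulAut.conjNormal b : MulAut W) c = MulAut.conjNormal b c
          rw [← map_mul, hbx.eq, map_mul, MulAut.mul_apply, (hC c).1 hc']
        let g : Function.End (W ⧸ C) := fun w => QuotientGroup.map C C α.toMonoidHom hα w
        have hg : ∀ (n : ℕ) (w : W), (g ^ n) (w : W ⧸ C) = (((α ^ n) w : W) : W ⧸ C) := fun n w => by
          induction n with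
          | zero => rfl
          | succ n ih =>
            rw [pow_succ', pow_succ']
            change g ((g ^ n) w) = _
            rw [ih]; rfl
        letI := Fintype.ofFinite (W ⧸ C)
        have h2 := Equiv.Perm.card_fixedPoints_modEq (f := g) (p := r) (n := 1) (by
          rw [pow_one]
          funext w
          obtain ⟨w, rfl⟩ := QuotientGroup.mk_surjective w
          rw [hg, ← map_pow, hbp, map_one]; rfl)
        have h3 : Fintype.card (W ⧸ C) = r := by rw [← Nat.card_eq_fintype_card]; exact ha
        have h4 : 0 < Fintype.card (Function.fixedPoints g) :=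
          Fintype.card_pos_iff.2 ⟨⟨1, map_one (QuotientGroup.map C C α.toMonoidHom hα)⟩⟩
        have h5 := Nat.le_of_dvd h4 ((Nat.modEq_zero_iff_dvd).1 (h2.symm.trans (by
          rw [h3]; exact Nat.modEq_zero_iff_dvd.2 dvd_rfl)))
        have h6 : Function.fixedPoints g = Set.univ := Set.eq_univ_of_forall fun w => by
          by_contra hw
          have := Fintype.card_subtype_lt hw
          exact absurd h5 (by rw [← h3]; exact not_le.2 (by convert this))
        intro w
        have : (w : W ⧸ C) ∈ Function.fixedPoints g := h6 ▸ Set.mem_univ _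
        exact QuotientGroup.eq.1 this
      have q2 : ⁅⁅W, Subgroup.zpowers x⁆, Subgroup.zpowers x⁆ = ⊥ := by
        rw [Subgroup.commutator_eq_bot_iff_le_centralizer]
        refine Subgroup.commutator_le.2 fun w hw b hb => ?_
        have h2 := Subgroup.mem_centralizer_singleton_iff.1
          (Subgroup.mem_subgroupOf.1 (q1 b hb ⟨w, hw⟩))
        have h3 : (((MulAut.conjNormal b (⟨w, hw⟩ : W))⁻¹ * ⟨w, hw⟩ : W) : G) = ⁅w, b⁆ := by
          simp only [Subgroup.coe_mul, Subgroup.coe_inv, MulAut.conjNormal_apply]
          rw [hc _ (inv_mem (hWn.conj_mem _ hw b)) _ hw, commutatorElement_def]; group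
        rw [h3] at h2
        rintro _ ⟨n, rfl⟩
        exact ((show Commute ⁅w, b⁆ x from h2).zpow_right n).symm
      have st := H11.isPStableOn_of_not_involves_qd (p := r) (by omega)
        (H11.not_involves_qd_of_not_involves_sl fun h => by
          obtain ⟨K, f, hf⟩ := H94.involves_iff.mp h
          exact H11.not_isPSolvable_sl hp5 (H18.isPSolvable_of_surjective
            (H18.isPSolvable_of_isSolvable r) f hf)) W hW x q2
      have hall' := hall ((pCore r _).comap (QuotientGroup.mk' (Subgroup.centralizer (W : Set G))))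
        inferInstance st
      let φ : G →* MulAut W := MulAut.conjNormal
      have hφ : IsPGroup r φ.range := by
        rintro ⟨_, g, rfl⟩
        obtain ⟨k, hk⟩ := H2.pCore_isPGroup r _ ⟨_, hall' g⟩
        have h2 : g ^ r ^ k ∈ Subgroup.centralizer (W : Set G) :=
          (QuotientGroup.eq_one_iff _).1 (by simpa using congrArg Subtype.val hk)
        refine ⟨k, Subtype.ext ?_⟩
        change φ g ^ r ^ k = 1
        rw [← map_pow]
        ext w
        change g ^ r ^ k * w * (g ^ r ^ k)⁻¹ = w
        rw [← h2 w w.2, mul_inv_cancel_right]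
      obtain ⟨w, hw, hw1⟩ := hφ.exists_fixed_point_of_prime_dvd_card_of_fixed_point W
        (ha ▸ C.index_dvd_card) (a := 1) (fun g => smul_one g)
      rcases hmin (W ⊓ Subgroup.center G) inferInstance inf_le_left with h | h
      · have : (w : G) ∈ W ⊓ Subgroup.center G := ⟨w.2, Subgroup.mem_center_iff.2 fun g =>
          mul_inv_eq_iff_eq_mul.1 (congrArg Subtype.val (hw ⟨φ g, g, rfl⟩))⟩
        rw [h] at this
        exact hw1 (Subtype.ext (Subgroup.mem_bot.1 this).symm)
      · exact hZ (h ▸ inf_le_right)
    · have hcop : (Nat.card C).Coprime p := by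
        obtain ⟨k, hk⟩ := (hW.to_subgroup C).exists_card_eq
        rw [hk]; exact ((Nat.coprime_primes hr.out hp.out).2 hrp).pow_left k
      rw [← hcard] at hmod
      have h2 : C.index ≡ 1 [MOD p] :=
        Nat.ModEq.cancel_left_of_coprime hcop.symm (by rwa [mul_one])
      have h0 : C.index ≠ 0 := Subgroup.FiniteIndex.index_ne_zero
      have h3 := Nat.le_of_dvd (by omega) ((Nat.modEq_iff_dvd' (by omega)).1 h2.symm)
      by_cases h7 : 7 ≤ p
      · left; omega
      have : p ≠ 6 := fun h => absurd hp.out (by rw [h]; decide)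
      obtain rfl : p = 5 := by omega
      left
      have h6 : C.index ≠ 6 := fun h => by
        have a2 : 2 ∣ r := Nat.prime_two.dvd_of_dvd_pow (by rw [← ha, h]; decide)
        have a3 : 3 ∣ r := Nat.prime_three.dvd_of_dvd_pow (by rw [← ha, h]; decide)
        rw [Nat.prime_dvd_prime_iff_eq Nat.prime_two hr.out] at a2
        rw [← a2] at a3; omega
      unfold Nat.ModEq at h2
      omega
  obtain ⟨m, rfl⟩ : ∃ m, p = m + 2 := ⟨p - 2, by omega⟩
  simp only [Nat.add_sub_cancel, show m + 2 - 1 = m + 1 from rfl]
  rcases big with h | ⟨h, h'⟩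
  · nlinarith [Nat.mul_le_mul_right (m ^ 2) h]
  · nlinarith [Nat.mul_le_mul_right (m ^ 2) h']

end H14.HF
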