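import Cfsg.Agent.H14.HalfFixB
import Cfsg.Agent.H90.PermMod

/-!
The fixed space of a generating element of prime order `p > 3` of a solvable group.
-/

set_option autoImplicit false

namespace H14.HF

open Module Cfsg
open scoped commutatorElement

variable {G K V : Type*} [Group G] [Field K] [AddCommGroup V] [Module K V]

/-- no proper invariant subspaces -/
def Irr (ρ : Representation K G V) : Prop :=
  ∀ U : Submodule K V, (∀ g, ∀ v ∈ U, ρ g v ∈ U) → U = ⊥ ∨ U = ⊤

theorem rep_inj (ρ : Representation K G V) (g : G) : Function.Injective (ρ g) :=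
  (ρ.apply_bijective g).1

theorem finrank_le_of_map {E : Type*} [AddCommGroup E] [Module K E] [FiniteDimensional K E]
    {A B : Submodule K E} (f : E →ₗ[K] E) (hf : Function.Injective f) (h : ∀ v ∈ A, f v ∈ B) :
    finrank K A ≤ finrank K B :=
  LinearMap.finrank_le_finrank_of_injective (f := f.restrict h) fun _ _ e =>
    Subtype.ext (hf (congrArg Subtype.val e))

variable [IsAlgClosed K] [FiniteDimensional K V] [Nontrivial V] {ρ : Representation K G V}

theorem schur (hirr : Irr ρ) (A : End K V) (hA : ∀ g, ρ g * A = A * ρ g) : ∃ c : K, A = c • 1 := by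
  obtain ⟨c, hc⟩ := End.exists_eigenvalue A
  refine ⟨c, ?_⟩
  rcases hirr (A.eigenspace c) (fun g v hv => by
    rw [End.mem_eigenspace_iff] at hv ⊢
    rw [← End.mul_apply, ← hA, End.mul_apply, hv, map_smul]) with h | h
  · exact absurd h hc
  · ext v
    exact End.mem_eigenspace_iff.1 (h ▸ Submodule.mem_top : v ∈ A.eigenspace c)

variable [Finite G] [Group.IsSolvable G] {x : G} {p : ℕ} [hp : Fact p.Prime]

theorem core_ab (hρ : Function.Injective ρ) (hirr : Irr ρ) (hp3 : 3 < p) (hx : x ^ p = 1)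
    (hgen : Subgroup.normalClosure {x} = ⊤) (N : Subgroup G) [N.Normal]
    (hc : ∀ a ∈ N, ∀ b ∈ N, a * b = b * a) (hN : ((Nat.card N : ℕ) : K) ≠ 0)
    (hZ : ¬ N ≤ Subgroup.center G) : 2 * finrank K (LinearMap.ker (ρ x - 1)) < finrank K V := by
  let f : N → End K V := fun s => ρ s
  have htop := H22.iSup_wt_eq_top f (fun s t => by
    change ρ s * ρ t = ρ t * ρ s
    rw [← map_mul, hc _ s.2 _ t.2, map_mul]) fun s => ⟨Nat.card N, hN, by
      simp only [f]
      rw [← map_pow, ← Subgroup.coe_pow, pow_card_eq_one']; simp⟩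
  obtain ⟨χ, hχ⟩ : ∃ χ, H22.wt f χ ≠ ⊥ := by
    by_contra! h
    simp only [h, iSup_bot] at htop
    exact bot_ne_top htop
  letI : MulAction G (N → K) :=
    { smul := fun g ψ s => ψ (MulAut.conjNormal g⁻¹ s)
      one_smul := fun ψ => by funext s; change ψ _ = _; simp
      mul_smul := fun a b ψ => by
        funext s; change ψ _ = ψ _; rw [mul_inv_rev, map_mul]; rfl }
  have hmap : ∀ (g : G) ψ, ∀ v ∈ H22.wt f ψ, ρ g v ∈ H22.wt f (g • ψ) := fun g ψ v hv => by
    rw [H22.mem_wt] at hv ⊢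
    intro s
    change ρ s (ρ g v) = ψ (MulAut.conjNormal g⁻¹ s) • ρ g v
    rw [← map_smul, ← hv]
    simp only [f, MulAut.conjNormal_apply, ← End.mul_apply, ← map_mul]
    congr 2; group
  have hdim : ∀ (g : G) ψ, finrank K (H22.wt f (g • ψ)) = finrank K (H22.wt f ψ) := fun g ψ =>
    le_antisymm (by
      have := finrank_le_of_map _ (rep_inj ρ g⁻¹) (hmap g⁻¹ (g • ψ))
      rwa [inv_smul_smul] at this)
      (finrank_le_of_map _ (rep_inj ρ g) (hmap g ψ))
  set H := MulAction.stabilizer G χ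
  have hH : H ≠ ⊤ := fun h => hZ fun s hs => by
    have h1 := (hirr (H22.wt f χ) fun g v hv => by
      have := hmap g χ v hv
      rwa [show g • χ = χ from (h.symm ▸ Subgroup.mem_top g : g ∈ H)] at this).resolve_left hχ
    have h2 : ∀ v, ρ s v = χ ⟨s, hs⟩ • v := fun v =>
      H22.mem_wt.1 (h1.symm ▸ Submodule.mem_top : v ∈ H22.wt f χ) ⟨s, hs⟩
    refine Subgroup.mem_center_iff.2 fun g => hρ ?_
    ext v
    rw [map_mul, map_mul, End.mul_apply, End.mul_apply, h2, h2, map_smul]
  let U : G ⧸ H → Submodule K V := fun t => H22.wt f (MulAction.ofQuotientStabilizer G χ t)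
  have hU : ∀ (g : G) t, ∀ v ∈ U t, ρ g v ∈ U (g • t) := fun g t v hv => by
    have := hmap g _ v hv
    rwa [← MulAction.ofQuotientStabilizer_smul] at this
  have hs : ⨆ t, U t = ⊤ := (hirr _ fun g v hv => by
    induction hv using Submodule.iSup_induction' with
    | mem t v hv => exact Submodule.mem_iSup_of_mem _ (hU g t v hv)
    | zero => simp
    | add a b _ _ ha hb => rw [map_add]; exact add_mem ha hb).resolve_left fun h => hχ (by
      have := (iSup_eq_bot.1 h) ((1 : G) : G ⧸ H)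
      simp only [U] at this
      rwa [MulAction.ofQuotientStabilizer_mk, one_smul] at this)
  obtain ⟨h1, h2⟩ := graded (p := p) U ((H22.iSupIndep_wt f).comp
    (MulAction.injective_ofQuotientStabilizer G χ)) hs (finrank K (H22.wt f χ)) (fun t => by
      obtain ⟨g, rfl⟩ := QuotientGroup.mk_surjective t
      exact hdim g χ) (ρ x) (MulAction.toPermHom G (G ⧸ H) x) (by rw [← map_pow, hx, map_one])
    (hU x) (LinearMap.ker (ρ x - 1)) fun c hc => sub_eq_zero.1 (LinearMap.mem_ker.1 hc)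
  have h3 := fpr (hp.out.odd_of_ne_two (by omega)) hx hgen hH
  have h4 : 0 < finrank K V := finrank_pos
  have hp5 : 5 ≤ p := by
    by_contra h
    obtain rfl : p = 4 := by omega
    exact absurd hp.out (by decide)
  change _ + Nat.card {t : G ⧸ H // x • t = t} * _ ≤ (_ + p * Nat.card {t : G ⧸ H // x • t = t}) * _
    at h2
  generalize Nat.card {t : G ⧸ H // x • t = t} = a at *
  generalize finrank K (H22.wt f χ) = b at *
  have h5 : 3 * (a * b) ≤ finrank K V := by rw [h1, ← mul_assoc]; exact Nat.mul_le_mul_right _ h3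
  rw [add_mul, ← h1, mul_assoc] at h2
  by_contra! h6
  obtain ⟨m, rfl⟩ : ∃ m, p = m + 5 := ⟨p - 5, by omega⟩
  nlinarith [Nat.mul_le_mul_left m h5, Nat.mul_le_mul_left m h6]

theorem core_na (hρ : Function.Injective ρ) (hirr : Irr ρ) (hp3 : 3 < p) (hx : x ^ p = 1)
    (hgen : Subgroup.normalClosure {x} = ⊤) (N : Subgroup G) [hNn : N.Normal] {r : ℕ} [Fact r.Prime]
    (hr : IsPGroup r N) (hrK : (r : K) ≠ 0)
    (hc : ∀ a ∈ N, ∀ b ∈ N, ⁅a, b⁆ ∈ Subgroup.center G)
    (hmin : ∀ M : Subgroup G, M.Normal → M ≤ N → M ≤ Subgroup.center G ∨ M = N)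
    (hna : ¬ ∀ a ∈ N, ∀ b ∈ N, a * b = b * a) :
    2 * finrank K (LinearMap.ker (ρ x - 1)) < finrank K V := by
  classical
  set Z := Subgroup.center G
  have hζ' : ∀ z : G, ∃ c : K, z ∈ Z → ρ z = c • 1 := fun z => by
    by_cases h : z ∈ Z
    · obtain ⟨c, hc⟩ := schur hirr (ρ z) fun g => by
        rw [← map_mul, ← map_mul, Subgroup.mem_center_iff.1 h]
      exact ⟨c, fun _ => hc⟩
    · exact ⟨0, fun h' => absurd h' h⟩
  choose ζ hζ using hζ'
  have hne : ∀ g, ρ g ≠ 0 := fun g h => by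
    have : ρ g * ρ g⁻¹ = 1 := by rw [← map_mul, mul_inv_cancel, map_one]
    rw [h, zero_mul] at this
    exact zero_ne_one this
  let F : Representation K G (End K V) := ρ.linHom ρ
  have hF : ∀ g A, F g A = ρ g * A * ρ g⁻¹ := fun g A => rfl
  have hFm : ∀ g A B, F g (A * B) = F g A * F g B := fun g A B => by
    have : ρ g⁻¹ * ρ g = 1 := by rw [← map_mul, inv_mul_cancel, map_one]
    rw [hF, hF, hF]
    calc ρ g * (A * B) * ρ g⁻¹ = ρ g * A * (ρ g⁻¹ * ρ g) * B * ρ g⁻¹ := by
          rw [this]; simp only [mul_assoc, one_mul]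
      _ = _ := by simp only [mul_assoc]
  have hFZ : Z ≤ MonoidHom.ker F := fun z hz => by
    ext A : 1
    rw [hF, hζ z hz, smul_mul_assoc, one_mul, smul_mul_assoc, ← mul_smul_comm, End.one_apply]
    have : ρ z * ρ z⁻¹ = 1 := by rw [← map_mul, mul_inv_cancel, map_one]
    rw [hζ z hz, smul_mul_assoc, one_mul] at this
    rw [this, mul_one]
  let π := QuotientGroup.mk' Z
  let F' := QuotientGroup.lift Z F hFZ
  set W := N.map π
  haveI hWn : W.Normal := hNn.map _ (QuotientGroup.mk'_surjective Z)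
  have hl' : ∀ w : W, ∃ n ∈ N, π n = w := fun w => w.2
  choose l hlN hl using hl'
  have cm : ∀ a a' b b' : G, π a = π a' → π b = π b' → ⁅a, b⁆ = ⁅a', b'⁆ := fun a a' b b' ha hb => by
    have h1 := Subgroup.mem_center_iff.1 (QuotientGroup.eq.1 ha)
    have h2 := Subgroup.mem_center_iff.1 (QuotientGroup.eq.1 hb)
    obtain ⟨y, rfl⟩ : ∃ y, a' = a * y := ⟨a⁻¹ * a', by group⟩
    obtain ⟨z, rfl⟩ : ∃ z, b' = b * z := ⟨b⁻¹ * b', by group⟩
    rw [inv_mul_cancel_left] at h1 h2
    simp only [commutatorElement_def, mul_inv_rev]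
    calc a * b * a⁻¹ * b⁻¹ = a * (b * y) * y⁻¹ * (a⁻¹ * b⁻¹) := by group
      _ = a * y * b * (y⁻¹ * a⁻¹ * z) * z⁻¹ * b⁻¹ := by rw [h1 b]; group
      _ = _ := by rw [h2 (y⁻¹ * a⁻¹)]; group
  let f : W → End K (End K V) := fun s => F' s
  have hf : ∀ s g, π g = (s : W) → f s = F g := fun s g h => by simp only [f, ← h]; rfl
  have k1 : ∀ s, ∀ n ∈ N, f s (ρ n) = ζ ⁅l s, n⁆ • ρ n := fun s n hn => by
    rw [hf s _ (hl s), hF, ← map_mul, ← map_mul, ← one_mul (ρ n), ← smul_mul_assoc,
      ← hζ _ (hc _ (hlN s) _ hn), ← map_mul, commutatorElement_def, inv_mul_cancel_right]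
  have k2 : ∀ s, ∀ n ∈ N, ∀ n' ∈ N, ζ ⁅l s, n * n'⁆ = ζ ⁅l s, n⁆ * ζ ⁅l s, n'⁆ := fun s n hn n' hn' => by
    have := k1 s _ (mul_mem hn hn')
    rw [map_mul, hf s _ (hl s), hFm, ← hf s _ (hl s), k1 s n hn, k1 s n' hn', smul_mul_smul_comm,
      ← map_mul] at this
    exact (smul_left_injective K (hne _) this).symm
  let χ : W → W → K := fun w s => ζ ⁅l s, l w⁆
  let U : W → Submodule K (End K V) := fun w => H22.wt f (χ w)
  have hχ0 : ∀ w s, χ w s ≠ 0 := fun w s h => hne ⁅l s, l w⁆ (by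
    rw [hζ _ (hc _ (hlN s) _ (hlN w))]; simp only [χ] at h; rw [h, zero_smul])
  have hcen : N ⊓ Subgroup.centralizer (N : Set G) ≤ Z :=
    (hmin _ inferInstance inf_le_left).resolve_right fun h => hna fun a ha b hb =>
      (h.symm ▸ hb : b ∈ N ⊓ Subgroup.centralizer (N : Set G)).2 a ha
  have hinj : Function.Injective χ := fun w w' h => by
    have hn := mul_mem (hlN w) (inv_mem (hlN w'))
    have : l w * (l w')⁻¹ ∈ Z := hcen ⟨hn, fun a ha => by
      let s : W := ⟨π a, a, ha, rfl⟩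
      have h1 := k2 s _ hn _ (hlN w')
      rw [inv_mul_cancel_right] at h1
      have h2 : ζ ⁅l s, l w⁆ = ζ ⁅l s, l w'⁆ := congrFun h s
      rw [h2, right_eq_mul₀ (hχ0 w' s)] at h1
      have h3 := hζ _ (hc _ (hlN s) _ hn)
      rw [h1, one_smul, ← map_one ρ, cm _ a _ _ (hl s) rfl] at h3
      exact commutatorElement_eq_one_iff_mul_comm.1 (hρ h3)⟩
    refine Subtype.ext ?_
    rw [← hl, ← hl, ← mul_inv_eq_one, ← map_inv, ← map_mul]
    exact (QuotientGroup.eq_one_iff _).2 this
  have hWc : ∀ a ∈ W, ∀ b ∈ W, a * b = b * a := by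
    rintro _ ⟨a, ha, rfl⟩ _ ⟨b, hb, rfl⟩
    rw [← commutatorElement_eq_one_iff_mul_comm, ← map_commutatorElement]
    exact (QuotientGroup.eq_one_iff _).2 (hc a ha b hb)
  have hWr : IsPGroup r W := hr.map π
  have hWK : ((Nat.card W : ℕ) : K) ≠ 0 := by
    obtain ⟨k, hk⟩ := hWr.exists_card_eq
    rw [hk, Nat.cast_pow]; exact pow_ne_zero _ hrK
  have hfm : ∀ s t, f (s * t) = f s * f t := fun s t => map_mul F' _ _
  have hs : ⨆ w, U w = ⊤ := by
    have htop := H22.iSup_wt_eq_top f (fun s t => by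
      change f s * f t = f t * f s
      rw [← hfm, ← hfm, show s * t = t * s from Subtype.ext (hWc _ s.2 _ t.2)])
      fun s => ⟨Nat.card W, hWK, by
        simp only [f]
        rw [← map_pow, ← Subgroup.coe_pow, pow_card_eq_one']; simp⟩
    have mk : ∀ ψ, H22.wt f ψ ≠ ⊥ → ∃ θ : W →* Kˣ, ∀ s, (θ s : K) = ψ s := fun ψ h => by
      obtain ⟨A, hA, hA0⟩ := (Submodule.ne_bot_iff _).1 h
      rw [H22.mem_wt] at hA
      refine ⟨MonoidHom.toHomUnits ⟨⟨ψ, ?_⟩, fun s t => ?_⟩, fun s => rfl⟩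
      · refine smul_left_injective K hA0 ?_
        simp only [← hA, f]; simp
      · refine smul_left_injective K hA0 ?_
        simp only
        rw [← hA, hfm, End.mul_apply, hA, map_smul, hA, smul_smul, mul_comm]
    have hUn : ∀ w, U w ≠ ⊥ := fun w => (Submodule.ne_bot_iff _).2
      ⟨ρ (l w), H22.mem_wt.2 fun s => k1 s _ (hlN w), hne _⟩
    choose Φ hΦ using fun w => mk _ (hUn w)
    letI : CommGroup W := { (inferInstance : Group W) with
      mul_comm := fun s t => Subtype.ext (hWc _ s.2 _ t.2) }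
    haveI : NeZero ((Monoid.exponent W : ℕ) : K) := ⟨fun h => hWK (by
      obtain ⟨c, hc⟩ := Group.exponent_dvd_nat_card (G := W)
      rw [hc, Nat.cast_mul, h, zero_mul])⟩
    have hcard := CommGroup.card_monoidHom_of_hasEnoughRootsOfUnity W K
    haveI : Finite (W →* Kˣ) := Nat.finite_of_card_ne_zero (hcard ▸ Nat.card_pos.ne')
    have hsurj := ((Nat.bijective_iff_injective_and_card Φ).2 ⟨fun w w' h => hinj (funext fun s => by
      rw [← hΦ, ← hΦ, h]), hcard.symm⟩).2
    rw [eq_top_iff, ← htop]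
    refine iSup_le fun ψ => ?_
    by_cases h : H22.wt f ψ = ⊥
    · rw [h]; exact bot_le
    · obtain ⟨θ, hθ⟩ := mk ψ h
      obtain ⟨w, rfl⟩ := hsurj θ
      have : ψ = χ w := funext fun s => by rw [← hθ, hΦ]
      rw [this]; exact le_iSup U w
  have hle : ∀ w w', finrank K (U w) ≤ finrank K (U w') := fun w w' => by
    have hn := mul_mem (hlN w') (inv_mem (hlN w))
    refine finrank_le_of_map (LinearMap.mulLeft K (ρ (l w' * (l w)⁻¹))) (fun A B h => ?_)
      fun A hA => H22.mem_wt.2 fun s => ?_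
    · have := congrArg (ρ (l w' * (l w)⁻¹)⁻¹ * ·) h
      simp only [LinearMap.mulLeft_apply] at this
      rwa [← mul_assoc, ← mul_assoc, ← map_mul, inv_mul_cancel, map_one, one_mul, one_mul] at this
    · have h1 := k2 s _ hn _ (hlN w)
      rw [inv_mul_cancel_right] at h1
      rw [LinearMap.mulLeft_apply, hf s _ (hl s), hFm, ← hf s _ (hl s), k1 s _ hn,
        H22.mem_wt.1 hA s, smul_mul_smul_comm]
      simp only [χ, h1]
  let α : MulAut W := MulAut.conjNormal (π x)
  have hxp : π x ^ p = 1 := by rw [← map_pow, hx, map_one]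
  obtain ⟨h1, h2⟩ := graded (p := p) U ((H22.iSupIndep_wt f).comp hinj) hs (finrank K (U 1))
    (fun w => le_antisymm (hle _ _) (hle _ _)) (F x) (MulAut.toPerm W α)
    (by simp only [α]; rw [← map_pow, ← map_pow, hxp, map_one, map_one])
    (fun w A hA => H22.mem_wt.2 fun s => by
      have e1 : π (x⁻¹ * l s * x) = (α⁻¹ s : W) := by
        simp only [α, ← map_inv MulAut.conjNormal, MulAut.conjNormal_apply]
        simp only [map_mul, hl, map_inv]
        exact congrArg _ (inv_inv _).symm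
      have e2 : π (x * l w * x⁻¹) = (α w : W) := by
        simp only [α, map_mul, hl, map_inv, MulAut.conjNormal_apply]
      have e3 : f s * F x = F x * f (α⁻¹ s) := by
        rw [hf s _ (hl s), hf _ _ e1, ← map_mul, ← map_mul]; congr 1; group
      rw [← End.mul_apply, e3, End.mul_apply, H22.mem_wt.1 hA, map_smul]
      congr 1
      change ζ _ = ζ ⁅l s, l (α w)⁆
      rw [cm _ _ _ _ ((hl _).trans e1.symm) rfl, cm (l s) _ _ _ rfl ((hl _).trans e2.symm)]
      congr 1
      have := Subgroup.mem_center_iff.1 (hc _ (by simpa using hNn.conj_mem _ (hlN s) x⁻¹ :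
        x⁻¹ * l s * x ∈ N) _ (hlN w)) x
      rw [← mul_inv_eq_iff_eq_mul] at this
      rw [← this]
      simp only [commutatorElement_def]; group)
    (H22.centEnd (ρ x)) fun c hc => by
      rw [hF, H22.mem_centEnd.1 hc, mul_assoc, ← map_mul, mul_inv_cancel, map_one, mul_one]
  obtain ⟨i, hi, hbig⟩ := idx hp3 hxp (by
    rw [← Set.image_singleton, ← Subgroup.map_normalClosure _ _ (QuotientGroup.mk'_surjective Z),
      hgen, Subgroup.map_top_of_surjective _ (QuotientGroup.mk'_surjective Z)]) W hWc hWr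
    (fun M hM hMW => by
      rcases hmin (M.comap π ⊓ N) inferInstance inf_le_right with h | h
      · left
        refine eq_bot_iff.2 fun m hm => ?_
        obtain ⟨n, hn, rfl⟩ := hMW hm
        exact (QuotientGroup.eq_one_iff _).2 (h ⟨hm, hn⟩)
      · right
        refine le_antisymm hMW ?_
        rintro _ ⟨n, hn, rfl⟩
        exact (h.symm ▸ hn : n ∈ M.comap π ⊓ N).1)
    (fun h => by
      obtain ⟨n, hn, hnZ⟩ : ∃ n ∈ N, n ∉ Z := by
        by_contra! h'
        exact hna fun a _ b hb => Subgroup.mem_center_iff.1 (h' b hb) a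
      have hM : ((Subgroup.zpowers (π n)).comap π ⊓ N).Normal := by
        haveI : (Subgroup.zpowers (π n)).Normal := ⟨fun y hy g => by
          rwa [Subgroup.mem_center_iff.1 (Subgroup.zpowers_le.2 (h ⟨n, hn, rfl⟩) hy) g,
            mul_inv_cancel_right]⟩
        infer_instance
      rcases hmin _ hM inf_le_right with h' | h'
      · exact hnZ (h' ⟨Subgroup.mem_zpowers _, hn⟩)
      · refine hna fun a ha b hb => ?_
        obtain ⟨i, hi⟩ := (h'.symm ▸ ha : a ∈ (Subgroup.zpowers (π n)).comap π ⊓ N).1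
        obtain ⟨j, hj⟩ := (h'.symm ▸ hb : b ∈ (Subgroup.zpowers (π n)).comap π ⊓ N).1
        rw [← commutatorElement_eq_one_iff_mul_comm, ← cm (n ^ i) _ (n ^ j) _
          (by rw [map_zpow]; exact hi) (by rw [map_zpow]; exact hj),
          commutatorElement_eq_one_iff_mul_comm]
        exact (Commute.zpow_zpow_self n i j).eq)
  obtain ⟨m, rfl⟩ : ∃ m, p = m + 1 + 1 := ⟨p - 2, by omega⟩
  have h3 := cent_lower (ρ x) (m := m + 1) (by rw [← map_pow, hx, map_one])
  have h4 : 0 < finrank K V := finrank_pos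
  have h5 : finrank K (LinearMap.ker (ρ x - 1)) ≤ finrank K V := Submodule.finrank_le _
  rw [Module.finrank_linearMap, hi] at h1
  change _ + Nat.card {w : W // MulAut.conjNormal (π x) w = w} * _ ≤
    (_ + _ * Nat.card {w : W // MulAut.conjNormal (π x) w = w}) * _ at h2
  rw [hi] at h2
  simp only [Nat.add_sub_cancel, show m + 1 + 1 - 2 = m from rfl] at hbig
  generalize Nat.card {w : W // MulAut.conjNormal (π x) w = w} = a at *
  generalize finrank K (U 1) = b at *
  generalize finrank K (H22.centEnd (ρ x)) = c at *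
  generalize finrank K (LinearMap.ker (ρ x - 1)) = u at *
  obtain ⟨e, he⟩ := Nat.exists_eq_add_of_le h5
  rw [he, Nat.add_sub_cancel_left] at h3
  rw [he] at h1 h4 ⊢
  by_contra! h6
  obtain ⟨t, rfl⟩ : ∃ t, u = e + t := ⟨u - e, by omega⟩
  set y := a * b
  have h7 : (m + 2) * c ≤ (i + m + 1) * y := by simp only [y] at h2 ⊢; nlinarith
  have h8 : (m + 2) * (i * y) ≤ 4 * ((m + 1) * c) := by
    have : i * y = (e + t + e) * (e + t + e) := by rw [h1]; simp only [y]; ring
    rw [this]; nlinarith [Nat.zero_le (m * e * t), Nat.zero_le (m * t * t), Nat.zero_le (t * t)]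
  have hy : 0 < y := Nat.pos_of_ne_zero fun h => by
    have : (e + t + e) * (e + t + e) = 0 := by
      rw [h1, mul_right_comm]; simp only [y] at h; rw [h, zero_mul]
    simp only [mul_self_eq_zero] at this; omega
  have h9 : (m + 2) * (m + 2) * i * y ≤ 4 * (m + 1) * (i + m + 1) * y := by
    nlinarith [Nat.mul_le_mul_left (m + 2) h8, Nat.mul_le_mul_left (4 * (m + 1)) h7]
  have := Nat.le_of_mul_le_mul_right h9 hy
  nlinarith

theorem core (ℓ : ℕ) [Fact ℓ.Prime] [CharP K ℓ] (hρ : Function.Injective ρ) (hirr : Irr ρ)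
    (hp3 : 3 < p) (hx : x ^ p = 1) (hx1 : x ≠ 1) (hgen : Subgroup.normalClosure {x} = ⊤) :
    2 * finrank K (LinearMap.ker (ρ x - 1)) < finrank K V := by
  by_cases h0 : (⊤ : Subgroup G) ≤ Subgroup.center G
  · rcases hirr (LinearMap.ker (ρ x - 1)) (fun g v hv => by
      rw [LinearMap.mem_ker, LinearMap.sub_apply, sub_eq_zero, End.one_apply] at hv ⊢
      rw [← End.mul_apply, ← map_mul, ← Subgroup.mem_center_iff.1 (h0 (Subgroup.mem_top x)) g,
        map_mul, End.mul_apply, hv]) with h | h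
    · rw [h, finrank_bot]; exact finrank_pos
    · rw [LinearMap.ker_eq_top, sub_eq_zero, ← map_one ρ] at h
      exact absurd (hρ h) hx1
  obtain ⟨N, ⟨hNn, hNZ⟩, hmin⟩ := H2.exists_minimal_subgroup
    (fun N : Subgroup G => N.Normal ∧ ¬ N ≤ Subgroup.center G) ⟨⊤, inferInstance, h0⟩
  have hmin' : ∀ M : Subgroup G, M.Normal → M ≤ N → M ≤ Subgroup.center G ∨ M = N :=
    fun M hM h => or_iff_not_imp_left.2 fun h' => hmin M ⟨hM, h'⟩ h
  have hc : ∀ a ∈ N, ∀ b ∈ N, ⁅a, b⁆ ∈ Subgroup.center G := fun a ha b hb => by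
    have h1 : ⁅N, N⁆ < N := H2.commutator_lt_of_isSolvable fun h => hNZ (h ▸ bot_le)
    exact (hmin' _ inferInstance h1.le).resolve_right h1.ne
      (Subgroup.commutator_mem_commutator ha hb)
  haveI : Group.IsNilpotent N := ⟨⟨2, eq_top_iff.2 fun a _ => by
    rw [Subgroup.mem_upperCentralSeries_succ_iff]
    intro b
    rw [Subgroup.upperCentralSeries_one, Subgroup.mem_center_iff]
    exact fun g => Subtype.ext (Subgroup.mem_center_iff.1 (hc a a.2 b b.2) g)⟩⟩
  obtain ⟨r, hr⟩ : ∃ r : Nat.Primes, ¬ (pCore (r : ℕ) N).map N.subtype ≤ Subgroup.center G := by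
    by_contra! h
    exact hNZ (H2.iSup_map_pCore_subtype N ▸ iSup_le h)
  haveI := Fact.mk r.2
  have hN : IsPGroup r N := by
    rw [← hmin _ ⟨inferInstance, hr⟩ (Subgroup.map_subtype_le _)]
    exact H2.isPGroup_map_pCore_subtype N
  have hrK : ((r : ℕ) : K) ≠ 0 := fun h => by
    have hl : ℓ = r := (Nat.prime_dvd_prime_iff_eq Fact.out r.2).1 ((CharP.cast_eq_zero_iff K ℓ _).1 h)
    subst hl
    obtain ⟨v, -, hv0, hv⟩ := H90.exists_fixed_of_isPGroup hN (ρ.comp N.subtype) ⊤ top_ne_bot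
      fun _ _ _ => trivial
    let U : Submodule K V :=
      { carrier := {v | ∀ n ∈ N, ρ n v = v}
        add_mem' := fun {a b} ha hb n hn => by rw [map_add, ha n hn, hb n hn]
        zero_mem' := fun n _ => map_zero _
        smul_mem' := fun c a ha n hn => by rw [map_smul, ha n hn] }
    rcases hirr U (fun g w hw n hn => by
      have := hw _ (hNn.conj_mem _ hn g⁻¹)
      conv_rhs => rw [← this]
      simp only [← End.mul_apply, ← map_mul]
      congr 2; group) with h | h
    · exact hv0 ((Submodule.eq_bot_iff U).1 h v fun n hn => hv ⟨n, hn⟩)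
    · refine hNZ fun n hn => ?_
      have : n = 1 := hρ (by
        ext w
        rw [map_one]
        exact (h.symm ▸ Submodule.mem_top : w ∈ U) n hn)
      rw [this]; exact one_mem _
  by_cases hab : ∀ a ∈ N, ∀ b ∈ N, a * b = b * a
  · refine core_ab hρ hirr hp3 hx hgen N hab ?_ hNZ
    obtain ⟨k, hk⟩ := hN.exists_card_eq
    rw [hk, Nat.cast_pow]; exact pow_ne_zero _ hrK
  · exact core_na hρ hirr hp3 hx hgen N hN hrK hc hmin' hab

omit [IsAlgClosed K] [Nontrivial V] in
theorem ker_le_add (f : End K V) (U : Submodule K V) (h : U ≤ U.comap f) :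
    finrank K (LinearMap.ker (f - 1)) ≤ finrank K (LinearMap.ker
      ((show End K U from f.restrict h) - 1)) +
      finrank K (LinearMap.ker ((show End K (V ⧸ U) from U.mapQ U f h) - 1)) := by
  let g : LinearMap.ker (f - 1) →ₗ[K]
      LinearMap.ker ((show End K (V ⧸ U) from U.mapQ U f h) - 1) :=
    (U.mkQ ∘ₗ Submodule.subtype _).codRestrict _ fun v => by
      have : f v = v := sub_eq_zero.1 (LinearMap.mem_ker.1 v.2)
      simp [this]
  rw [← g.finrank_range_add_finrank_ker, add_comm]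
  refine add_le_add ?_ (Submodule.finrank_le _)
  have hm : ∀ v : LinearMap.ker g, (v.1.1 : V) ∈ U := fun v =>
    (Submodule.Quotient.mk_eq_zero U).1 (congrArg Subtype.val (LinearMap.mem_ker.1 v.2))
  refine LinearMap.finrank_le_finrank_of_injective (f := LinearMap.codRestrict _
    (LinearMap.codRestrict U (Submodule.subtype _ ∘ₗ Submodule.subtype _) hm) fun v => ?_)
    fun a b e => Subtype.ext (Subtype.ext (congrArg (fun z => (z.1.1 : V)) e))
  exact Subtype.ext (LinearMap.mem_ker.1 v.1.2)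

theorem general (ℓ : ℕ) [Fact ℓ.Prime] [CharP K ℓ] (hp3 : 3 < p) (hx : x ^ p = 1)
    (hgen : Subgroup.normalClosure {x} = ⊤) (A : Finset G) (hA : ((A.card : ℕ) : K) ≠ 0) (n : ℕ) :
    ∀ (V : Type*) [AddCommGroup V] [Module K V] [FiniteDimensional K V] [Nontrivial V]
      (ρ : Representation K G V), finrank K V = n → (∀ v, ∑ a ∈ A, ρ a v = 0) →
      2 * finrank K (LinearMap.ker (ρ x - 1)) < finrank K V := by
  induction n using Nat.strong_induction_on with
  | _ n ih =>
  intro V _ _ _ _ ρ hn h0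
  by_cases hirr : Irr ρ
  · let π := QuotientGroup.mk' (MonoidHom.ker ρ)
    have hs := QuotientGroup.mk'_surjective (MonoidHom.ker ρ)
    refine core (ρ := QuotientGroup.lift (MonoidHom.ker ρ) ρ le_rfl) (x := π x) ℓ
      ((QuotientGroup.injective_lift_iff _ _ _).2 rfl) (fun U hU => hirr U fun g => hU (π g)) hp3
      (by rw [← map_pow, hx, map_one]) (fun h => ?_) (by
        rw [← Set.image_singleton, ← Subgroup.map_normalClosure _ _ hs, hgen,
          Subgroup.map_top_of_surjective _ hs])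
    have h1 : ∀ g, ρ g = 1 := fun g => (Subgroup.normalClosure_le_normal (Set.singleton_subset_iff.2
      ((QuotientGroup.eq_one_iff _).1 h)) : Subgroup.normalClosure {x} ≤ MonoidHom.ker ρ)
      (hgen ▸ Subgroup.mem_top g)
    obtain ⟨v, hv⟩ := exists_ne (0 : V)
    have := h0 v
    simp only [h1, End.one_apply, Finset.sum_const, ← Nat.cast_smul_eq_nsmul K] at this
    exact hv ((smul_eq_zero.1 this).resolve_left hA)
  unfold Irr at hirr
  push Not at hirr
  obtain ⟨U, hU, hb, ht⟩ := hirr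
  have hU' : ∀ g, U ≤ U.comap (ρ g) := fun g v hv => hU g v hv
  haveI : Nontrivial U := Submodule.nontrivial_iff_ne_bot.2 hb
  haveI : Nontrivial (V ⧸ U) := Submodule.Quotient.nontrivial_iff.2 ht
  have hd := U.finrank_quotient_add_finrank
  have p1 : 0 < finrank K U := finrank_pos
  have p2 : 0 < finrank K (V ⧸ U) := finrank_pos
  have a1 := ih _ (by omega) U (ρ.subrepresentation U hU') rfl fun v => Subtype.ext (by
    rw [Submodule.coe_sum]; exact h0 v)
  have a2 := ih _ (by omega) (V ⧸ U) (ρ.quotient U hU') rfl fun v => by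
    obtain ⟨v, rfl⟩ := U.mkQ_surjective v
    have := congrArg U.mkQ (h0 v)
    rw [map_sum, map_zero] at this
    exact this
  have a3 := ker_le_add (ρ x) U (hU' x)
  have a4 := add_lt_add a1 a2
  rw [← mul_add, add_comm (finrank K U), hd] at a4
  exact lt_of_le_of_lt (Nat.mul_le_mul_left 2 a3) a4

end H14.HF
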