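import Cfsg.Agent.H14.KsMod
import Cfsg.Agent.H34.KgvE

/-! Kovács–Robinson: the class number of a solvable group without normal `p'`-subgroups. -/

set_option autoImplicit false

namespace H14.Ks

open Subgroup H10.Kg Cfsg H33.Solv
open scoped commutatorElement

universe u

theorem le_three_pow : ∀ f, f ≤ 3 ^ (f - 1)
  | 0 => Nat.zero_le _
  | f + 1 => Nat.lt_pow_self (by decide)

theorem irr_main {p : ℕ} (hp : p.Prime) (r : ℕ) : ∀ (X W : Type u) [Group X] [Finite X]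
    [AddCommGroup W] [Finite W] [Nontrivial W] [DistribMulAction X W] [FaithfulSMul X W],
    Group.IsSolvable X → Irr X W → (∀ w : W, p • w = 0) → Nat.card W = p ^ r →
    ∃ (N : Subgroup X) (_ : N.Normal), KS (X ⧸ N) (3 ^ (r - 1)) ∧
      ∃ v : W, ∀ a ∈ N, ∀ b ∈ N, a • v = v → b • v = v → a * b = b * a := by
  induction r using Nat.strong_induction_on with
  | _ r ih =>
  intro X W _ _ _ _ _ _ _ hs hi hV hW
  by_cases hq : QPrim X W
  · obtain ⟨G, _, _, j, Z, N, f, d, e, hG, hj, hr, h⟩ := step_qp hs hi hq hp hV hW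
    have := h.ns.nn
    obtain ⟨Y, _, _, φ, h1, h2⟩ := ns_ks hG h.ns h.rel
    obtain ⟨v, hv⟩ := exists_ne (0 : W)
    refine ⟨N.comap j, inferInstance, (ks_quot ((QuotientGroup.mk' N).comp j)
      (fun x hx => (QuotientGroup.eq_one_iff (j x)).1 hx) (h.ks_N φ h1 h2)).mono ?_, v,
      fun a ha b hb e1 e2 => ?_⟩
    · refine (Nat.mul_le_mul_left _ (le_three_pow f)).trans ((pow_prod_le h.pos
        ((Nat.pos_of_ne_zero index_ne_zero_of_finite).trans_le h.idx)).trans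
        (Nat.pow_le_pow_right (by decide) (Nat.sub_le_sub_right ?_ 1)))
      rw [← hr, mul_comm]
      exact Nat.mul_le_mul_left _ h.le
    have h3 : j ⁅a, b⁆ ∈ Z := map_commutatorElement j a b ▸ h.ns.comm _ ha _ hb
    have h4 : ⁅a, b⁆ ∈ MulAction.stabilizer X v := by
      have e1 : a ∈ MulAction.stabilizer X v := e1
      have e2 : b ∈ MulAction.stabilizer X v := e2
      exact mul_mem (mul_mem (mul_mem e1 e2) (inv_mem e1)) (inv_mem e2)
    rw [← commutatorElement_eq_one_iff_mul_comm]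
    generalize ⁅a, b⁆ = x at h3 h4
    have := h.ns.cyc
    obtain ⟨c, hc⟩ := IsCyclic.exists_generator (α := Z)
    obtain ⟨k, hk⟩ := hc ⟨_, h3⟩
    have hk' : (c : G) ^ k = j x := congrArg Subtype.val hk
    rcases hi (fix W x) (fun g w hw => by
      obtain ⟨m, hm⟩ := hc ⟨_, h.ns.zn.conj_mem _ c.2 (j g⁻¹)⟩
      have hm' : (c : G) ^ m = j g⁻¹ * c * (j g⁻¹)⁻¹ := congrArg Subtype.val hm
      have e : g⁻¹ * x * g⁻¹⁻¹ = x ^ m := hj (by
        rw [map_zpow, ← hk', ← zpow_mul, mul_comm k, zpow_mul, hm', conj_zpow, hk', map_mul,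
          map_mul, map_inv j g⁻¹])
      have := fix_zpow (mem_fix.1 hw) (e ▸ zpow_mem_zpowers x m : g⁻¹ * x * g⁻¹⁻¹ ∈ zpowers x)
      rw [inv_inv, mul_smul, mul_smul, inv_smul_eq_iff] at this
      exact this) with h5 | h5
    · exact absurd (h5.le (mem_fix.2 h4)) hv
    · exact eq_of_smul_eq_smul (α := W) fun w => (mem_fix.1 (h5.ge trivial)).trans (one_smul _ _).symm
  obtain ⟨H, U, Y, _, _, _, _, f, hH, hY, h2, h3, h4, h5, h6⟩ := step_imp hs hi hq
  have hU : ∀ w : U, p • w = 0 := fun w => Subtype.ext (hV w)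
  obtain ⟨s, hs'⟩ := card_eq_pow hp hU
  rw [hs', hW, ← pow_mul, Nat.pow_le_pow_iff_right hp.one_lt] at h4
  have h7 : 1 ≤ s := Nat.pos_of_ne_zero (by rintro rfl; simp [hs'] at h3)
  have h8 : 2 ≤ H.index := one_lt_index_of_ne_top hH.1
  have := Finite.one_lt_card_iff_nontrivial.1 h3
  obtain ⟨N, _, h9, u, hu⟩ := ih s (by nlinarith) Y U hY h2 hU hs'
  obtain ⟨v, hv⟩ := h6 u
  let D := ((N.comap f).map H.subtype).normalCore
  have hD : D ≤ H.normalCore := normalCore_mono (map_subtype_le _)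
  refine ⟨D, inferInstance, (ks_core hs hH ((QuotientGroup.mk' N).comp f) h9 D fun k hk g =>
    ⟨cjc H g⁻¹ k, (QuotientGroup.eq_one_iff (f _)).1 (hk g⁻¹), ?_⟩).mono
    (pow_core_le h7 (by omega) h4), v, fun a ha b hb e1 e2 => ?_⟩
  · change g⁻¹⁻¹ * k * g⁻¹⁻¹⁻¹ = _
    group
  have key : ∀ (g : X) (y : Y) (k : X) (hk : k ∈ D), f (cjc H g ⟨k, hD hk⟩) • y • u = y • u →
      y⁻¹ * f (cjc H g ⟨k, hD hk⟩) * y⁻¹⁻¹ ∈ N ∧
        (y⁻¹ * f (cjc H g ⟨k, hD hk⟩) * y⁻¹⁻¹) • u = u := fun g y k hk e => by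
    obtain ⟨x, hx, e'⟩ := hk g⁻¹
    refine ⟨Normal.conj_mem ‹_› _ ?_ _, by rw [inv_inv, mul_smul, mul_smul, e, inv_smul_smul]⟩
    rwa [show cjc H g ⟨k, hD hk⟩ = x from Subtype.ext e'.symm]
  rw [← commutatorElement_eq_one_iff_mul_comm]
  refine congrArg Subtype.val (h5 ⁅(⟨a, hD ha⟩ : H.normalCore), (⟨b, hD hb⟩ : H.normalCore)⁆ fun g => ?_)
  obtain ⟨y, hy⟩ := hv g
  obtain ⟨a1, a2⟩ := key g y a ha (hy _ e1)
  obtain ⟨b1, b2⟩ := key g y b hb (hy _ e2)
  have := hu _ a1 _ b1 a2 b2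
  rw [conj_mul, conj_mul, mul_left_inj, mul_right_inj] at this
  rw [map_commutatorElement, map_commutatorElement, commutatorElement_eq_one_iff_mul_comm, this]

theorem kk_coprime {X : Type u} [Group X] [Finite X] (hs : Group.IsSolvable X) {p r : ℕ}
    [hp : Fact p.Prime] {V R : Subgroup X} [V.Normal] [R.Normal] (h0 : V ≠ ⊥)
    (hmin : ∀ K : Subgroup X, K.Normal → K ≤ V → K = ⊥ ∨ K = V) (hV : ∀ x ∈ V, x ^ p = 1)
    (hc : ∀ a ∈ V, ∀ b ∈ V, a * b = b * a) (hVR : V ≤ R) (hi : ¬ p ∣ V.relIndex R)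
    (hC : R ⊓ centralizer (V : Set X) ≤ V) (hr : Nat.card V = p ^ r) :
    kk R ≤ 3 ^ (r - 1) * p ^ r := by
  obtain ⟨W, _, π, hπ⟩ := exists_sec (Z := ⊥) (N := V) (fun a ha b hb =>
    commutatorElement_eq_one_iff_mul_comm.2 (hc a ha b hb)) fun a _ z hz => by simp [mem_bot.1 hz]
  obtain ⟨_, hact⟩ := hπ.exists_act
  have := hπ.finite
  have hW : Nat.card W = p ^ r := by rw [hπ.card, relIndex_bot_left, hr]
  have hinj : ∀ {a b : X}, a ∈ V → b ∈ V → π a = π b → a = b := fun ha hb e =>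
    inv_mul_eq_one.1 ((hπ.eq_iff ha hb).1 e)
  have : Nontrivial W := Finite.one_lt_card_iff_nontrivial.1 (by
    rw [hW, ← hr]; exact (one_lt_card_iff_ne_bot V).2 h0)
  obtain ⟨Y, _, _, _, _, φ, hY, hf, hfa⟩ := faith X W hs
  obtain ⟨N, _, h1, v, hv⟩ := irr_main hp.out r Y W hY (irr_of hf hfa fun U hU => by
    rcases hmin (hπ.pre U) ⟨fun a ha g => ⟨Normal.conj_mem ‹_› a ha.1 g,
      hact g a ha.1 ▸ hU g _ ha.2⟩⟩ fun a ha => ha.1 with h | h
    · refine Or.inl (eq_bot_iff.2 fun w hw => ?_)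
      obtain ⟨a, ha, rfl⟩ := hπ.surj w
      exact (hπ.zero a ha).2 (h.le ⟨ha, hw⟩)
    · refine Or.inr (eq_top_iff.2 fun w _ => ?_)
      obtain ⟨a, ha, rfl⟩ := hπ.surj w
      exact (h.ge ha).2) (fun w => by
    obtain ⟨a, ha, rfl⟩ := hπ.surj w
    rw [← hπ.pow ha, hV a ha, hπ.one]) hW
  obtain ⟨x, hx, rfl⟩ := hπ.surj v
  have hk : ∀ g, φ g = 1 ↔ g ∈ centralizer (V : Set X) := fun g =>
    ⟨fun h a ha => by
      have := hfa g (π a)
      rw [h, one_smul, hact g a ha] at this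
      exact mul_inv_eq_iff_eq_mul.1 (hinj ha (Normal.conj_mem ‹_› a ha g) this).symm |>.symm,
    fun h => eq_of_smul_eq_smul (α := W) fun w => by
      obtain ⟨a, ha, rfl⟩ := hπ.surj w
      rw [hfa, hact g a ha, ← h a ha, mul_inv_cancel_right, one_smul]⟩
  let S : Subgroup R := N.comap (φ.comp R.subtype)
  let ι : S →* X := R.subtype.comp S.subtype
  have hι : Function.Injective ι := R.subtype_injective.comp S.subtype_injective
  have hVS : ∀ a (ha : a ∈ V), (⟨a, hVR ha⟩ : R) ∈ S := fun a ha => by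
    change φ a ∈ N
    rw [(hk a).2 fun b hb => hc b hb a ha]
    exact one_mem N
  have hcard : Nat.card (V.comap ι) = p ^ r := by
    rw [← hr]
    exact Nat.card_eq_of_bijective (fun a => ⟨ι a, a.2⟩)
      ⟨fun a b e => Subtype.ext (hι (congrArg (fun z : V => (z : X)) e)),
        fun a => ⟨⟨⟨⟨a, hVR a.2⟩, hVS a a.2⟩, a.2⟩, rfl⟩⟩
  have hidx : ¬ p ∣ (V.comap ι).index := fun h => hi (h.trans
    (relIndex_dvd_index_of_normal (V.subgroupOf R) S))
  obtain ⟨L, hL⟩ := exists_right_complement'_of_coprime (N := V.comap ι) (by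
    rw [hcard]; exact ((Nat.Prime.coprime_iff_not_dvd hp.out).2 hidx).pow_left r)
  have hself : centralizer (V.comap ι : Set S) = V.comap ι :=
    le_antisymm (fun g hg => hC ⟨g.1.2, fun a ha =>
      congrArg ι (hg ⟨⟨a, hVR ha⟩, hVS a ha⟩ ha)⟩) fun g hg a ha => hι (hc _ ha _ hg)
  have h2 := H34.knorr_abelian (X := S) (fun a ha => hι (by rw [map_pow, hV _ ha, map_one])) hidx
    hself hL (v := ⟨⟨x, hVR hx⟩, hVS x hx⟩) hx fun a ha b hb => by
      have e : ∀ c ∈ L ⊓ centralizer {(⟨⟨x, hVR hx⟩, hVS x hx⟩ : S)}, φ (ι c) • π x = π x :=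
        fun c hc => by
          have : ι c * x = x * ι c := congrArg ι (mem_centralizer_singleton_iff.1 hc.2)
          rw [hfa, hact _ x hx, this, mul_inv_cancel_right]
      have h3 := hv _ a.2 _ b.2 (e a ha) (e b hb)
      rw [← commutatorElement_eq_one_iff_mul_comm] at h3 ⊢
      refine hL.disjoint.le_bot (mem_inf.2 ⟨hC ⟨⁅a, b⁆.1.2, (hk _).1 ?_⟩,
        mul_mem (mul_mem (mul_mem ha.1 hb.1) (inv_mem ha.1)) (inv_mem hb.1)⟩)
      rw [map_commutatorElement, map_commutatorElement]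
      exact h3
  rw [mul_comm, ← hcard]
  exact (H24.card_conjClasses_le_mul S).trans (Nat.mul_le_mul h2
    (ks_quot ((QuotientGroup.mk' N).comp (φ.comp R.subtype))
      (fun y hy => (QuotientGroup.eq_one_iff (φ y)).1 hy) h1).kk_le)

theorem kk_bound {p : ℕ} [hp : Fact p.Prime] (n : ℕ) : ∀ (X : Type u) [Group X] [Finite X],
    Nat.card X = n → Group.IsSolvable X → pPrimeCore p X = ⊥ →
    kk X ≤ 3 ^ (n.factorization p - 1) * p ^ n.factorization p := by
  induction n using Nat.strong_induction_on with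
  | _ n ih =>
  intro X _ _ hn hs hO
  rcases subsingleton_or_nontrivial X with h | h
  · exact (kk_le_card.trans Nat.card_unique.le).trans
      (Nat.mul_pos (Nat.pow_pos (by decide)) (Nat.pow_pos hp.out.pos))
  obtain ⟨V, _, h0, hmin⟩ := H2.exists_minimal_normal X
  obtain ⟨q, hq, -, hE, hP⟩ := H2.exists_elementaryAbelian_of_minimal_normal h0 hmin
  obtain rfl : q = p := by
    by_contra hne
    have := Fact.mk hq
    obtain ⟨k, hk⟩ := IsPGroup.iff_card.1 hP
    exact h0 (le_bot_iff.1 (hO ▸ H2.le_pPrimeCore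
      (hk ▸ ((Nat.coprime_primes hq hp.out).2 hne).pow_left k)))
  obtain ⟨r, hr⟩ := IsPGroup.iff_card.1 hP
  have hr0 : 1 ≤ r := Nat.pos_of_ne_zero (by
    rintro rfl; exact h0 (card_eq_one.1 hr))
  let O := pPrimeCore q (X ⧸ V)
  let R := O.comap (QuotientGroup.mk' V)
  have hVR : V ≤ R := fun a ha => by
    change (a : X ⧸ V) ∈ O
    rw [(QuotientGroup.eq_one_iff a).2 ha]
    exact one_mem O
  have hrel : V.relIndex R = Nat.card O := by
    conv_lhs => rw [← QuotientGroup.ker_mk' V]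
    rw [relIndex_ker, map_comap_eq_self_of_surjective (QuotientGroup.mk'_surjective V)]
  have hi : ¬ q ∣ V.relIndex R := hrel ▸ H2.not_dvd_card_pPrimeCore q _
  have := H2.isMulCommutative_of_minimal_normal hmin
  have h1 := kk_coprime hs h0 hmin (H2.pow_eq_one_of_minimal_normal hmin hq
    (hr ▸ dvd_pow_self q (by omega))) (fun a ha b hb => setLike_mul_comm ha hb) hVR hi
    (fun c hc => by
      let C := R ⊓ centralizer (V : Set X)
      have hF : ∀ y : C, y ∈ fittingSubgroup C → (y : X) ∈ V := fun y hy => by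
        rw [H2.fitting_eq_subgroupOf, H2.fitting_eq_pCore_of_pPrimeCore_eq_bot hO] at hy
        obtain ⟨k, hk⟩ := H2.pCore_isPGroup q X ⟨y, hy⟩
        refine (QuotientGroup.eq_one_iff _).1 (orderOf_eq_one_iff.1 (Nat.eq_one_of_dvd_coprimes
          ((H2.coprime_orderOf_of_mem_pPrimeCore y.2.1).pow_right k) dvd_rfl
          (orderOf_dvd_of_pow_eq_one ?_)))
        rw [← QuotientGroup.mk_pow, show (y : X) ^ q ^ k = 1 from congrArg Subtype.val hk]
        rfl
      exact hF ⟨c, hc⟩ (H2.centralizer_fitting_le C fun y hy => Subtype.ext (hc.2 y (hF y hy)))) hr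
  let π : X →* (X ⧸ V) ⧸ O := (QuotientGroup.mk' O).comp (QuotientGroup.mk' V)
  have hπ : Function.Surjective π :=
    (QuotientGroup.mk'_surjective O).comp (QuotientGroup.mk'_surjective V)
  have hk : π.ker = R := by rw [← MonoidHom.comap_ker, QuotientGroup.ker_mk']
  have hcard : n = Nat.card ((X ⧸ V) ⧸ O) * Nat.card O * q ^ r := by
    rw [← hn, ← hr, ← O.card_eq_card_quotient_mul_card_subgroup,
      ← V.card_eq_card_quotient_mul_card_subgroup]
  have hY : 0 < Nat.card ((X ⧸ V) ⧸ O) := Nat.card_pos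
  have hO' : 0 < Nat.card O := Nat.card_pos
  have hq1 := Nat.one_lt_pow (n := r) (by omega) hq.one_lt
  have h2 := ih _ (hcard ▸ (Nat.le_mul_of_pos_right _ hO').trans_lt
    ((Nat.lt_mul_iff_one_lt_right (Nat.mul_pos hY hO')).2 hq1)) ((X ⧸ V) ⧸ O) rfl inferInstance
    (H2.pPrimeCore_quotient_pPrimeCore q _)
  have h3 : n.factorization q = (Nat.card ((X ⧸ V) ⧸ O)).factorization q + r := by
    rw [hcard, Nat.factorization_mul (by positivity) (by positivity),
      Nat.factorization_mul hY.ne' hO'.ne', hq.factorization_pow]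
    simp [Nat.factorization_eq_zero_of_not_dvd (H2.not_dvd_card_pPrimeCore q (X ⧸ V)), O]
  rw [← kk_congr ((QuotientGroup.quotientMulEquivOfEq hk.symm).trans
    (QuotientGroup.quotientKerEquivOfSurjective π hπ))] at h2
  refine (H24.card_conjClasses_le_mul R).trans ((Nat.mul_le_mul h1 h2).trans ?_)
  rw [h3, pow_add q, mul_mul_mul_comm, ← pow_add, mul_comm (q ^ r)]
  exact Nat.mul_le_mul_right _ (Nat.pow_le_pow_right (by decide) (by omega))

end H14.Ks
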