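import Cfsg.Agent.H14.KsMod
import Cfsg.Agent.H32.CliffordCorr
import Cfsg.Agent.H33.Ind
import Cfsg.Agent.H28.Degree

/-! Kovács–Robinson: class numbers of sections of solvable linear groups above the Fitting
subgroup. -/

set_option autoImplicit false

namespace H14.Ks

open Subgroup H10.Kg Cfsg H33.Solv H28
open scoped commutatorElement

universe u

attribute [local instance] H2.fitting_normal

theorem exists_ns {G K : Type*} [Group G] [Finite G] [Field K] (hs : Group.IsSolvable G)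
    {Z : Subgroup G} [Z.Normal] (hZ : ∀ a ∈ Z, ∀ z ∈ Z, z * a = a * z)
    (hmx : ∀ U : Subgroup G, U.Normal → (∀ a ∈ U, ∀ b ∈ U, a * b = b * a) → Z ≤ U → U ≤ Z)
    (hcyc : IsCyclic Z) (φ : Z →* K) (hφ : Function.Injective φ) : ∃ N, NS Z N := by
  obtain ⟨N, ⟨h1, h2, h3, h4⟩, hmax⟩ := H2.exists_maximal_subgroup
    (fun N : Subgroup G => N.Normal ∧ Z ≤ N ∧ N ≤ centralizer (Z : Set G) ∧
      ∀ a ∈ N, ∀ b ∈ N, ⁅a, b⁆ ∈ Z)
    ⟨_, ‹_›, le_rfl, hZ, fun a ha b hb => by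
      rw [commutatorElement_eq_one_iff_mul_comm.2 (hZ b hb a ha)]; exact one_mem _⟩
  refine ⟨N, ‹_›, h1, h2, h3, h4, hmx, fun g hg => by_contra fun hn => ?_, hcyc, ded φ hφ⟩
  obtain ⟨M, ⟨hM, hMB, hMZ⟩, hmin⟩ := H2.exists_minimal_subgroup
    (fun M : Subgroup G => M.Normal ∧ M ≤ centralizer (N : Set G) ∧ ¬ M ≤ Z)
    ⟨_, inferInstance, le_rfl, fun e => hn (e hg)⟩
  have hlt := H2.commutator_lt_of_isSolvable (M := M) fun e => hMZ (e ▸ bot_le)
  have hle : ⁅M, M⁆ ≤ Z := by_contra fun e =>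
    hlt.ne (hmin _ ⟨inferInstance, hlt.le.trans hMB, e⟩ hlt.le)
  have hMN : M ≤ N := le_sup_right.trans (hmax (N ⊔ M) ⟨inferInstance, h2.trans le_sup_left,
    sup_le h3 (hMB.trans (centralizer_le h2)), fun a ha b hb => by
      rw [← SetLike.mem_coe, mul_normal] at ha hb
      obtain ⟨a, ha, m, hm, rfl⟩ := ha
      obtain ⟨b, hb, k, hk, rfl⟩ := hb
      have e2 : Commute b m := hMB hm b hb
      have e4 : ∀ x ∈ M, ∀ y ∈ N, Commute y x := fun x hx y hy => hMB hx y hy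
      have : ⁅a * m, b * k⁆ = ⁅a, b⁆ * ⁅m, k⁆ := by
        simp only [commutatorElement_def, mul_inv_rev]
        calc _ = a * (m * b) * (k * m⁻¹ * a⁻¹) * (k⁻¹ * b⁻¹) := by group
          _ = a * (b * m) * (a⁻¹ * (k * m⁻¹)) * (k⁻¹ * b⁻¹) := by
            rw [e2.eq, (e4 _ (mul_mem hk (inv_mem hm)) _ (inv_mem ha)).eq]
          _ = a * b * (m * a⁻¹) * (k * m⁻¹ * k⁻¹ * b⁻¹) := by group
          _ = a * b * (a⁻¹ * m) * (b⁻¹ * (k * m⁻¹ * k⁻¹)) := by
            rw [(e4 _ hm _ (inv_mem ha)).eq,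
              (e4 _ (mul_mem (mul_mem hk (inv_mem hm)) (inv_mem hk)) _ (inv_mem hb)).eq]
          _ = a * b * a⁻¹ * (m * b⁻¹) * (k * m⁻¹ * k⁻¹) := by group
          _ = _ := by rw [← (e4 _ hm _ (inv_mem hb)).eq]; group
      exact this ▸ mul_mem (h4 a ha b hb) (hle (commutator_mem_commutator hm hk))⟩ le_sup_left).le
  refine hMZ (le_sup_right.trans (hmx (Z ⊔ M) inferInstance (fun a ha b hb => ?_) le_sup_left))
  exact (sup_le (fun z hz a ha => (h3 ha z hz).symm) hMB : _ ≤ centralizer (N : Set G)) hb a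
    (sup_le h2 hMN ha)

theorem ks_homog {G : Type u} [Group G] [Finite G] (hs : Group.IsSolvable G) {χ : G → ℂ}
    (hχ : IsIrrCharacter G χ) (hk : charKer χ = ⊥)
    (H : ∀ N : Subgroup G, N.Normal → ∃ (θ : N → ℂ) (e : ℕ), IsIrrCharacter N θ ∧
      (fun n : N => χ n) = (e : ℂ) • θ) :
    KS (G ⧸ fittingSubgroup G) (3 ^ (charDegree χ - 1)) := by
  have hC := hχ.charCenter_eq_center hk
  obtain ⟨lam, hlam⟩ := hχ.exists_central_hom (Z := center G) le_rfl
  have hker := ker_eq_of_translation hχ.ne_zero hlam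
  rw [hk, bot_subgroupOf, MonoidHom.ker_eq_bot_iff] at hker
  obtain ⟨N, h⟩ := exists_ns hs (Z := center G) (fun a _ z hz => (mem_center_iff.1 hz a).symm)
    (fun U hU hc _ u hu => by
      obtain ⟨θ, e, hθ, he⟩ := H U hU
      have h1 := hθ.apply_one_of_comm fun a b => Subtype.ext (hc a a.2 b b.2)
      obtain ⟨μ, rfl⟩ := hθ.isCharacter.exists_hom h1
      have h2 : χ u = e * μ ⟨u, hu⟩ := congrFun he ⟨u, hu⟩
      have h3 : χ 1 = e := by simpa using congrFun he 1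
      have h4 : (μ ⟨u, hu⟩ : ℂ) ^ orderOf (⟨u, hu⟩ : U) = 1 := by
        rw [← Units.val_pow_eq_pow_val, ← map_pow, pow_orderOf_eq_one, map_one, Units.val_one]
      rw [← hC, hχ.mem_charCenter, h2, h3, norm_mul,
        Complex.norm_eq_one_of_pow_eq_one h4 (orderOf_pos _).ne']
      simp) (hχ.isCyclic_center hk) ((Units.coeHom ℂ).comp lam) (Units.val_injective.comp hker)
  have := h.nn
  obtain ⟨θ, f, hθ, hf⟩ := H N h.nn
  have h1 : χ 1 = f * θ 1 := congrFun hf 1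
  have hkθ : charKer θ = ⊥ := charKer_eq_bot_of_forall fun n hn => Subtype.ext (by
    have : (n : G) ∈ charKer χ := hχ.mem_charKer.2 (by
      rw [h1, ← hn]; exact congrFun hf n)
    rwa [hk] at this)
  have h2 : charCenter θ = (center G).subgroupOf N := by
    rw [hθ.charCenter_eq_center hkθ]
    refine le_antisymm (fun z hz => mem_subgroupOf.2 (h.n2 _ fun a ha => ?_)) fun z hz => ?_
    · exact congrArg Subtype.val (mem_center_iff.1 hz ⟨a, ha⟩)
    · exact mem_center_iff.2 fun a => Subtype.ext (mem_center_iff.1 (mem_subgroupOf.1 hz) (a : G))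
  have h3 := hθ.degree_sq_eq_index_of_commutator_le (by
    rw [h2, _root_.commutator_def, commutator_le]
    exact fun a _ b _ => h.comm a a.2 b b.2) hθ.cast_charDegree.symm
  rw [h2, sq] at h3
  obtain ⟨X, _, _, φ, h4, h5⟩ := ns_ks hs h h3.symm
  have h6 : charDegree χ = f * charDegree θ := by
    rw [← hχ.cast_charDegree, ← hθ.cast_charDegree] at h1
    exact_mod_cast h1
  have h7 := hχ.charDegree_pos
  have := ns_nilp h
  refine (ks_quot φ (fun g hg => H2.le_fitting N (h4 ⟨hg, fun z hz => (mem_center_iff.1 hz g).symm⟩))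
    h5).mono (Nat.pow_le_pow_right (by decide) (Nat.sub_le_sub_right ?_ 1))
  rw [h6] at h7 ⊢
  exact Nat.le_mul_of_pos_left _ (Nat.pos_of_mul_pos_right h7)

theorem ks_char (r : ℕ) : ∀ (G : Type u) [Group G] [Finite G] (χ : G → ℂ), Group.IsSolvable G →
    IsCharacter G χ → charKer χ = ⊥ → charDegree χ = r →
    KS (G ⧸ fittingSubgroup G) (3 ^ (r - 1)) := by
  induction r using Nat.strong_induction_on with
  | _ r ih =>
  have ih' : ∀ (G : Type u) [Group G] [Finite G] (χ : G → ℂ), Group.IsSolvable G →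
      IsCharacter G χ → charDegree χ < r → ∃ (X : Type u) (_ : Group X) (_ : Finite X)
        (f : G →* X), f.ker = charKer χ ∧
        KS (X ⧸ fittingSubgroup X) (3 ^ (charDegree χ - 1)) := fun G _ _ χ hs hχ hlt => by
    have := hχ.charKer_normal
    obtain ⟨η, hη, e⟩ := hχ.exists_quotient (charKer χ) le_rfl
    refine ⟨G ⧸ charKer χ, _, inferInstance, QuotientGroup.mk' _, QuotientGroup.ker_mk' _,
      ih _ hlt _ η inferInstance hη (charKer_eq_bot_of_forall fun x hx => ?_)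
        (charDegree_congr (e 1))⟩
    obtain ⟨g, rfl⟩ := QuotientGroup.mk_surjective x
    exact (QuotientGroup.eq_one_iff g).2 (hχ.mem_charKer.2 (by rw [← e, hx, ← e]; rfl))
  intro G _ _ χ hs hχ hk hr
  classical
  have := Fintype.ofFinite G
  by_cases hi : IsIrrCharacter G χ
  swap
  · have key : χ = 0 ∨ ∃ φ θ, IsIrrCharacter G φ ∧ IsCharacter G θ ∧ χ = φ + θ :=
      hχ.induction (P := fun χ => χ = 0 ∨ ∃ φ θ, IsIrrCharacter G φ ∧ IsCharacter G θ ∧ χ = φ + θ)
        (Or.inl rfl) fun φ θ h1 h2 _ => Or.inr ⟨φ, θ, h1, h2, rfl⟩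
    rcases key with rfl | ⟨φ, θ, h1, h2, rfl⟩
    · have : Subsingleton G := ⟨fun a b => by
        have : ∀ g : G, g = 1 := fun g => mem_bot.1 (hk ▸ fun _ => rfl)
        rw [this a, this b]⟩
      exact ks_quot (MonoidHom.id G) bot_le
        (ks_of_card (Nat.card_unique.le.trans (Nat.one_le_pow _ _ (by decide))))
    have h3 := h1.charDegree_pos
    have h4 : 0 < charDegree θ := Nat.pos_of_ne_zero fun h0 => hi (by
      rwa [h2.charDegree_eq_zero_iff.1 h0, add_zero])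
    rw [h1.isCharacter.charDegree_add h2] at hr
    rw [h1.isCharacter.charKer_add h2] at hk
    obtain ⟨X, _, _, f, a1, a2⟩ := ih' G φ hs h1.isCharacter (by omega)
    obtain ⟨Y, _, _, f', b1, b2⟩ := ih' G θ hs h2 (by omega)
    refine (ks_prod_fit f f' a2 b2 fun g e1 e2 => mem_bot.1 (hk ▸ mem_inf.2 ⟨a1 ▸ e1, b1 ▸ e2⟩)).mono ?_
    rw [← pow_add]
    exact Nat.pow_le_pow_right (by decide) (by omega)
  by_cases h : ∃ (T : Subgroup G) (ψ : T → ℂ), T ≠ ⊤ ∧ IsIrrCharacter T ψ ∧ indFun T ψ = χ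
  swap
  · refine hr ▸ ks_homog hs hi hk fun N hN => by_contra fun h1 => h ?_
    obtain ⟨T, ψ, -, h2⟩ := H32.exists_induced_of_not_homogeneous hi h1
    exact ⟨T, ψ, h2⟩
  obtain ⟨T, ψ, hT, hψ, e⟩ := h
  obtain ⟨M, hM, hTM⟩ := (eq_top_or_exists_le_coatom T).resolve_left hT
  let η : M → ℂ := indFun (T.subgroupOf M) fun x => ψ ⟨(x : M), x.2⟩
  have hη : IsCharacter M η := (H32.isIrrCharacter_subgroupOf hTM hψ).isCharacter.indFun
  have e2 : indFun M η = χ := (H33.indFun_indFun M _ T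
    (fun g => ⟨fun hg => ⟨hTM hg, hg⟩, fun ⟨_, hg⟩ => hg⟩) _ ψ fun l h e => by
      congr 1; exact Subtype.ext e).trans e
  have h1 := hη.charDegree_indFun
  rw [e2, hr] at h1
  have h2 : 2 ≤ M.index := one_lt_index_of_ne_top hM.1
  have h3 : 0 < charDegree η := Nat.pos_of_mul_pos_left (h1 ▸ hr ▸ hi.charDegree_pos)
  obtain ⟨X, _, _, f, a1, a2⟩ := ih' M η inferInstance hη (by nlinarith)
  refine (ks_core_fit hs hM f a2 fun k hk' => Subtype.ext (mem_bot.1 (hk ▸ hχ.mem_charKer.2 ?_))).mono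
    (pow_core_le h3 (by omega) (by rw [h1, mul_comm]))
  rw [← e2, H33.indFun_apply, H33.indFun_apply]
  refine congrArg _ (Finset.sum_congr rfl fun x _ => ?_)
  have h4 := hη.mem_charKer.1 (a1.le (hk' x))
  rw [mul_one, inv_mul_cancel, show x⁻¹ * k * x = (cjc M x k : M) by simp [cjc],
    H33.ext0_coe, h4]
  exact (H33.ext0_coe M η 1).symm

end H14.Ks
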