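import Cfsg.Agent.H10.KgImp
import Cfsg.Agent.H24.ClassCount
import Cfsg.Agent.H2.Fitting

/-! Bounds for the class numbers of all subgroups of a group. -/

set_option autoImplicit false

namespace H14.Ks

open Subgroup H10.Kg Cfsg

universe u

attribute [local instance] H2.fitting_normal

/-- All subgroups have at most `b` classes. -/
def KS (X : Type*) [Group X] (b : ℕ) : Prop := ∀ H : Subgroup X, kk H ≤ b

variable {X Y G : Type*} [Group X] [Group Y] [Group G] {a b : ℕ}

theorem KS.mono (h : KS X a) (hab : a ≤ b) : KS X b := fun H => (h H).trans hab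

theorem kk_le_card [Finite X] : kk X ≤ Nat.card X :=
  Nat.card_le_card_of_surjective _ ConjClasses.mk_surjective

theorem ks_of_card [Finite X] (h : Nat.card X ≤ b) : KS X b := fun H =>
  kk_le_card.trans ((card_le_card_group H).trans h)

theorem KS.kk_le [Finite X] (h : KS X b) : kk X ≤ b := (kk_congr topEquiv).ge.trans (h ⊤)

theorem KS.of_inj [Finite X] (h : KS X b) (f : Y →* X) (hf : Function.Injective f) : KS Y b :=
  fun H => (kk_congr (H.equivMapOfInjective f hf).symm).ge.trans (h _)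

theorem KS.of_surj [Finite X] (h : KS X b) (f : X →* Y) (hf : Function.Surjective f) : KS Y b :=
  fun H => (kk_le_of_surj (f.subgroupComap H) (f.subgroupComap_surjective_of_surjective H hf)).trans
    (h _)

theorem KS.sub [Finite X] (h : KS X b) (H : Subgroup X) : KS H b := h.of_inj _ H.subtype_injective

theorem ks_quot [Finite Y] {N : Subgroup G} [N.Normal] (f : G →* Y) (hf : f.ker ≤ N)
    (h : KS Y b) : KS (G ⧸ N) b := by
  refine (h.sub f.range).of_surj ((QuotientGroup.map _ N (MonoidHom.id G) hf).comp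
    (QuotientGroup.quotientKerEquivRange f).symm.toMonoidHom) fun x => ?_
  obtain ⟨g, rfl⟩ := QuotientGroup.mk_surjective x
  exact ⟨QuotientGroup.quotientKerEquivRange f g, by simp; rfl⟩

theorem KS.of_bot [Finite G] (h : KS (G ⧸ (⊥ : Subgroup G)) b) : KS G b :=
  h.of_surj QuotientGroup.quotientBot.toMonoidHom QuotientGroup.quotientBot.surjective

theorem KS.quot_mono [Finite G] {N M : Subgroup G} [N.Normal] [M.Normal] (h : KS (G ⧸ N) b)
    (hNM : N ≤ M) : KS (G ⧸ M) b :=
  ks_quot (QuotientGroup.mk' N) (by rwa [QuotientGroup.ker_mk']) h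

theorem KS.quot_sub [Finite G] {N : Subgroup G} [N.Normal] (h : KS (G ⧸ N) b) (H : Subgroup G) :
    KS (H ⧸ N.subgroupOf H) b :=
  ks_quot ((QuotientGroup.mk' N).comp H.subtype) (fun x hx => (QuotientGroup.eq_one_iff (x : G)).1 hx) h

theorem ks_ext [Finite X] (M : Subgroup X) [M.Normal] (h1 : KS M a) (h2 : KS (X ⧸ M) b) :
    KS X (a * b) := fun H =>
  (H24.card_conjClasses_le_mul (M.subgroupOf H)).trans (Nat.mul_le_mul
    (h1.of_inj ((H.subtype.comp (M.subgroupOf H).subtype).codRestrict M fun x => x.2)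
      fun _ _ e => Subtype.ext (Subtype.ext (congrArg (fun z : M => (z : X)) e))).kk_le (h2.quot_sub H).kk_le)

theorem ks_ker [Finite X] [Finite Y] (f : X →* Y) (h1 : KS f.ker a) (h2 : KS Y b) :
    KS X (a * b) := ks_ext f.ker h1 (ks_quot f le_rfl h2)

theorem ks_tower [Finite G] (N M : Subgroup G) [N.Normal] [M.Normal]
    (h1 : KS (M ⧸ N.subgroupOf M) a) (h2 : KS (G ⧸ M) b) : KS (G ⧸ N) (a * b) := by
  have : (M.map (QuotientGroup.mk' N)).Normal := Normal.map inferInstance _ (QuotientGroup.mk'_surjective N)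
  refine ks_ext (M.map (QuotientGroup.mk' N)) ?_ ?_
  · refine h1.of_surj (QuotientGroup.lift _ ((QuotientGroup.mk' N).subgroupMap M) fun x hx =>
      Subtype.ext ((QuotientGroup.eq_one_iff _).2 hx)) fun y => ?_
    obtain ⟨x, rfl⟩ := MonoidHom.subgroupMap_surjective _ M y
    exact ⟨x, rfl⟩
  · refine h2.of_surj (QuotientGroup.lift _ ((QuotientGroup.mk' _).comp (QuotientGroup.mk' N))
      fun x hx => (QuotientGroup.eq_one_iff _).2 ⟨x, hx, rfl⟩) fun y => ?_
    obtain ⟨y, rfl⟩ := QuotientGroup.mk_surjective y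
    obtain ⟨x, rfl⟩ := QuotientGroup.mk_surjective y
    exact ⟨x, rfl⟩

theorem ks_prod [Finite X] [Finite Y] (h1 : KS X a) (h2 : KS Y b) : KS (X × Y) (a * b) :=
  ks_ker (MonoidHom.snd X Y) (h1.of_inj ((MonoidHom.fst X Y).comp (Subgroup.subtype _))
    fun x y e => Subtype.ext (Prod.ext e (x.2.trans y.2.symm))) h2

theorem ks_fin [Finite Y] (h : KS Y b) : ∀ n : ℕ, KS (Fin n → Y) (b ^ n)
  | 0 => ks_of_card (by simp)
  | n + 1 => by
    rw [pow_succ']
    exact (ks_prod h (ks_fin h n)).of_inj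
      ((Pi.evalMonoidHom _ 0).prod (MonoidHom.pi fun i : Fin n => Pi.evalMonoidHom _ i.succ))
      fun x y e => funext fun i => Fin.cases (congrArg Prod.fst e)
        (fun j => congrFun (congrArg Prod.snd e) j) i

theorem ks_pi [Finite Y] (h : KS Y b) (ι : Type*) [Finite ι] : KS (ι → Y) (b ^ Nat.card ι) :=
  (ks_fin h _).of_inj (MulEquiv.arrowCongr (Finite.equivFin ι) (MulEquiv.refl Y)).toMonoidHom
    (MulEquiv.injective _)

theorem ks_inf [Finite G] {N M L : Subgroup G} [N.Normal] [M.Normal] [L.Normal]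
    (h1 : KS (G ⧸ N) a) (h2 : KS (G ⧸ M) b) (h : N ⊓ M ≤ L) : KS (G ⧸ L) (a * b) :=
  ks_quot ((QuotientGroup.mk' N).prod (QuotientGroup.mk' M)) (by
    rwa [MonoidHom.ker_prod, QuotientGroup.ker_mk', QuotientGroup.ker_mk']) (ks_prod h1 h2)

theorem pow_four_le : ∀ m, 9 ≤ m → m ^ 4 ≤ 3 ^ (m - 1) := by
  intro m hm
  induction m, hm using Nat.le_induction with
  | base => norm_num
  | succ m hm ih =>
    obtain ⟨k, rfl⟩ := Nat.exists_eq_add_of_le' hm
    rw [show k + 9 + 1 - 1 = k + 9 - 1 + 1 by omega, pow_succ 3]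
    refine le_trans ?_ (Nat.mul_le_mul_right 3 ih)
    ring_nf
    omega

theorem core_le {G : Type u} [Group G] [Finite G] (hs : Group.IsSolvable G) {H : Subgroup G}
    (hH : IsCoatom H) : H.normalCore.index ≤ 3 ^ (H.index - 1) := by
  obtain ⟨r, s, k, hr, e1, e2, e3, e4⟩ := core_index hs hH
  rw [e2]
  generalize H.index = m at *
  rcases le_or_gt 9 m with h | h
  · exact le_trans (by nlinarith) (pow_four_le m h)
  have h2 := hr.two_le
  have hs4 : s < 4 := by
    by_contra h4
    have := (Nat.pow_le_pow_left h2 4).trans (Nat.pow_le_pow_right hr.pos (not_lt.1 h4))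
    omega
  have hr9 : s ≠ 0 → r < 9 := fun h0 => (Nat.le_self_pow h0 r).trans_lt (e1 ▸ h)
  subst e1
  interval_cases s
  · simpa using e4
  all_goals
    have := hr9 (by decide)
    interval_cases r <;> first | omega | (simp [Finset.prod_range_succ] at e4 h ⊢; omega)

/-- The conjugation map from the core. -/
def cjc (H : Subgroup G) (g : G) : H.normalCore →* H :=
  MonoidHom.mk' (fun k => ⟨g⁻¹ * k * g⁻¹⁻¹, k.2 g⁻¹⟩) fun x y => Subtype.ext (by simp [mul_assoc])

theorem ks_core {G : Type u} [Group G] [Finite G] [Finite Y] (hs : Group.IsSolvable G)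
    {H : Subgroup G} (hH : IsCoatom H) (ψ : H →* Y) (h : KS Y b) (N : Subgroup G) [N.Normal]
    (hN : ∀ k : H.normalCore, (∀ g, ψ (cjc H g k) = 1) → (k : G) ∈ N) :
    KS (G ⧸ N) (b ^ H.index * 3 ^ (H.index - 1)) := by
  refine ks_tower N H.normalCore (ks_quot (MonoidHom.pi fun ω : G ⧸ H => ψ.comp (cjc H ω.out))
    (fun k hk => hN k fun g => ?_) (ks_pi h _)) (ks_of_card (core_le hs hH))
  obtain ⟨c, hc⟩ := QuotientGroup.mk_out_eq_mul H g
  have h1 : ψ (cjc H (g : G ⧸ H).out k) = 1 := congrFun hk g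
  have h2 : cjc H g k = c * cjc H (g : G ⧸ H).out k * c⁻¹ := Subtype.ext (by
    change g⁻¹ * k * g⁻¹⁻¹ = c * ((g : G ⧸ H).out⁻¹ * k * (g : G ⧸ H).out⁻¹⁻¹) * (c : G)⁻¹
    rw [hc]; group)
  rw [h2, map_mul, map_mul, h1, mul_one, ← map_mul, mul_inv_cancel, map_one]

theorem le_fit_of_inj [Finite G] {D : Subgroup G} [D.Normal] {ι : Type*} [Finite ι]
    {X : ι → Type*} [∀ i, Group (X i)] [∀ i, Finite (X i)] (f : ∀ i, D →* X i)
    (h1 : ∀ i d, f i d ∈ fittingSubgroup (X i)) (h2 : ∀ d, (∀ i, f i d = 1) → d = 1) :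
    D ≤ fittingSubgroup G := by
  have := fun i => H2.fitting_isNilpotent (X i)
  have := Fintype.ofFinite ι
  have : Group.IsNilpotent D := H2.isNilpotent_of_injective
    (MonoidHom.pi fun i => (f i).codRestrict _ (h1 i))
    ((injective_iff_map_eq_one _).2 fun d hd => h2 d fun i => congrArg Subtype.val (congrFun hd i))
  exact H2.le_fitting D

/-- The imprimitive step for the quotient by the Fitting subgroup. -/
theorem ks_core_fit {G : Type u} [Group G] [Finite G] [Finite X] (hs : Group.IsSolvable G)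
    {H : Subgroup G} (hH : IsCoatom H) (f : H →* X) (h : KS (X ⧸ fittingSubgroup X) b)
    (hf : ∀ k : H.normalCore, (∀ g, f (cjc H g k) = 1) → k = 1) :
    KS (G ⧸ fittingSubgroup G) (b ^ H.index * 3 ^ (H.index - 1)) := by
  refine ks_core hs hH ((QuotientGroup.mk' _).comp f) h _ fun k hk => ?_
  let D := (((fittingSubgroup X).comap f).map H.subtype).normalCore
  have hD : D ≤ H.normalCore := normalCore_mono (map_subtype_le _)
  refine le_fit_of_inj (D := D) (ι := G) (X := fun _ => X)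
    (fun g => (f.comp (cjc H g)).comp (inclusion hD)) (fun g d => ?_) (fun d hd => ?_) fun g => ?_
  · obtain ⟨x, hx, e⟩ := d.2 g⁻¹
    have : cjc H g (inclusion hD d) = x := Subtype.ext e.symm
    change f (cjc H g (inclusion hD d)) ∈ _
    rwa [this]
  · exact inclusion_injective hD ((hf _ hd).trans (map_one _).symm)
  · refine ⟨cjc H g⁻¹ k, (QuotientGroup.eq_one_iff (f _)).1 (hk g⁻¹), ?_⟩
    change g⁻¹⁻¹ * k * g⁻¹⁻¹⁻¹ = _
    group

/-- The reducible step for the quotient by the Fitting subgroup. -/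
theorem ks_prod_fit [Finite G] [Finite X] [Finite Y] (f : G →* X) (f' : G →* Y)
    (h : KS (X ⧸ fittingSubgroup X) a) (h' : KS (Y ⧸ fittingSubgroup Y) b)
    (hf : ∀ g, f g = 1 → f' g = 1 → g = 1) : KS (G ⧸ fittingSubgroup G) (a * b) := by
  have := H2.fitting_isNilpotent X
  have := H2.fitting_isNilpotent Y
  let D := (fittingSubgroup X).comap f ⊓ (fittingSubgroup Y).comap f'
  have : Group.IsNilpotent D := H2.isNilpotent_of_injective
    (H := fittingSubgroup X × fittingSubgroup Y)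
    (((f.comp D.subtype).codRestrict (fittingSubgroup X) fun d => d.2.1).prod
      ((f'.comp D.subtype).codRestrict (fittingSubgroup Y) fun d => d.2.2))
    ((injective_iff_map_eq_one _).2 fun d hd => Subtype.ext (hf d
      (congrArg (fun z : fittingSubgroup X × fittingSubgroup Y => (z.1 : X)) hd)
      (congrArg (fun z : fittingSubgroup X × fittingSubgroup Y => (z.2 : Y)) hd)))
  exact ks_inf (N := (fittingSubgroup X).comap f) (M := (fittingSubgroup Y).comap f')
    (ks_quot ((QuotientGroup.mk' _).comp f) (fun x hx => (QuotientGroup.eq_one_iff (f x)).1 hx) h)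
    (ks_quot ((QuotientGroup.mk' _).comp f') (fun x hx => (QuotientGroup.eq_one_iff (f' x)).1 hx) h')
    (H2.le_fitting D)

theorem pow_prod_le {a b : ℕ} (ha : 1 ≤ a) (hb : 1 ≤ b) :
    3 ^ (a - 1) * 3 ^ (b - 1) ≤ 3 ^ (a * b - 1) := by
  rw [← pow_add]
  refine Nat.pow_le_pow_right (by norm_num) ?_
  obtain ⟨a, rfl⟩ := Nat.exists_eq_add_of_le' ha
  obtain ⟨b, rfl⟩ := Nat.exists_eq_add_of_le' hb
  simp only [Nat.add_sub_cancel]
  refine Nat.le_sub_one_of_lt ?_
  nlinarith [Nat.zero_le (a * b)]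

theorem pow_core_le {s m r : ℕ} (hs : 1 ≤ s) (hm : 1 ≤ m) (h : s * m ≤ r) :
    (3 ^ (s - 1)) ^ m * 3 ^ (m - 1) ≤ 3 ^ (r - 1) := by
  rw [← pow_mul, ← pow_add]
  refine Nat.pow_le_pow_right (by norm_num) ?_
  obtain ⟨s, rfl⟩ := Nat.exists_eq_add_of_le' hs
  simp only [Nat.add_sub_cancel]
  rw [add_mul] at h
  omega

end H14.Ks
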