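import Cfsg.Agent.H14.KsStep
import Cfsg.Agent.H34.TLSemi

/-! Class number bounds for solvable groups acting on small modules. -/

set_option autoImplicit false
set_option synthInstance.maxSize 2048

namespace H14.Ks

open Subgroup H10.Kg Cfsg H33.Solv Finset
open scoped commutatorElement

universe u

theorem kk_lt {Y : Type*} [Group Y] [Finite Y] (A : Subgroup Y) {a c : ℕ} (ha : Nat.card A ≤ a)
    (h0 : 0 < c) (hc : ∀ g ∉ A, cz g ≤ c) : kk Y < a + c := by
  classical
  have := Fintype.ofFinite Y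
  have h1 := kk_mul (G := Y)
  rw [← sum_filter_add_sum_filter_not univ (· ∈ A)] at h1
  have h2 : ∑ x : Y with x ∈ A, cz x ≤ a * Nat.card Y :=
    (sum_le_card_nsmul _ _ _ fun x _ => card_le_card_group _).trans
      (by rw [card_filter_mem, smul_eq_mul]; gcongr)
  have h3 : ∑ x : Y with x ∉ A, cz x ≤ #{x : Y | x ∉ A} * c :=
    sum_le_card_nsmul _ _ _ fun x hx => hc x (mem_filter.1 hx).2
  have h4 : #{x : Y | x ∉ A} < Nat.card Y := by
    rw [Nat.card_eq_fintype_card]
    exact card_lt_card (filter_ssubset.2 ⟨1, mem_univ _, not_not.2 (one_mem A)⟩)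
  refine Nat.lt_of_mul_lt_mul_right (a := Nat.card Y) ?_
  nlinarith

theorem kk_two {Y W : Type*} [Group Y] [Finite Y] [AddCommGroup W] [Finite W]
    [DistribMulAction Y W] [FaithfulSMul Y W] {p : ℕ} [hp' : Fact p.Prime] [Module (ZMod p) W]
    (h : Nat.card W = p ^ 2) : kk Y < p - 1 + (p ^ 2 - 1) := by
  have hp := hp'.out
  let T : Y → W →ₗ[ZMod p] W := fun g => (DistribSMul.toAddMonoidHom W g).toZModLinearMap p
  have hT : ∀ g w, T g w = g • w := fun _ _ => rfl
  have hfr : Module.finrank (ZMod p) W = 2 := by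
    rw [Module.natCard_eq_pow_finrank (K := ZMod p), Nat.card_zmod] at h
    exact Nat.pow_right_injective hp.two_le h
  have hW : 1 < Nat.card W := h ▸ Nat.one_lt_pow two_ne_zero hp.one_lt
  have := Finite.one_lt_card_iff_nontrivial.1 hW
  obtain ⟨v₀, hv₀⟩ := exists_ne (0 : W)
  have hne : ∀ {g : Y} {a : ZMod p}, (∀ w : W, g • w = a • w) → a ≠ 0 := fun {g a} ha h0 =>
    hv₀ ((smul_eq_zero_iff_eq g).1 (by rw [ha, h0, zero_smul]))
  let A : Subgroup Y :=
    { carrier := {g | ∃ a : ZMod p, ∀ w : W, g • w = a • w}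
      one_mem' := ⟨1, fun w => by simp⟩
      mul_mem' := fun ⟨a, ha⟩ ⟨b, hb⟩ => ⟨b * a, fun w => by
        rw [mul_smul, hb, ← hT, map_smul, hT, ha, mul_smul]⟩
      inv_mem' := fun {g} ⟨a, ha⟩ => ⟨a⁻¹, fun w => by
        rw [inv_smul_eq_iff, ha, smul_smul, mul_inv_cancel₀ (hne ha), one_smul]⟩ }
  refine kk_lt A ?_ (by have := Nat.one_lt_pow two_ne_zero hp.one_lt; omega) fun g hg => ?_
  · choose a ha using fun g : A => g.2
    rw [← Nat.card_zmod p, ← Nat.card_units]
    exact Nat.card_le_card_of_injective (fun g => Units.mk0 (a g) (hne (ha g))) fun x y e =>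
      Subtype.ext (eq_of_smul_eq_smul (α := W) fun w => by
        rw [ha, ha, show a x = a y from congrArg Units.val e])
  · obtain ⟨v, hv⟩ : ∃ v, LinearIndependent (ZMod p) ![v, T g v] := by
      by_contra hn
      push Not at hn
      obtain ⟨a, ha⟩ := LinearMap.exists_eq_smul_id_of_forall_notLinearIndependent hn
      exact hg ⟨a, fun w => by rw [← hT, ha]; rfl⟩
    have hv0 : v ≠ 0 := hv.ne_zero 0
    let b := basisOfLinearIndependentOfCardEqFinrank hv (by rw [hfr]; rfl)
    have hb : ⇑b = ![v, T g v] := coe_basisOfLinearIndependentOfCardEqFinrank _ _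
    have hc : Nat.card {w : W // w ≠ 0} = p ^ 2 - 1 := by
      classical
      have := Fintype.ofFinite W
      rw [← h, Nat.card_eq_fintype_card, Nat.card_eq_fintype_card, Fintype.card_subtype_compl,
        Fintype.card_subtype_eq]
    rw [← hc]
    refine Nat.card_le_card_of_injective (fun c : centralizer ({g} : Set Y) =>
      (⟨(c : Y) • v, mt (smul_eq_zero_iff_eq _).1 hv0⟩ : {w : W // w ≠ 0})) fun x y e => ?_
    have e1 : (x : Y) • v = (y : Y) • v := congrArg Subtype.val e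
    have e2 : T x = T y := b.ext fun i => by
      rw [hb]
      fin_cases i
      · exact e1
      · change (x : Y) • g • v = (y : Y) • g • v
        rw [smul_smul, smul_smul, mem_centralizer_singleton_iff.1 x.2,
          mem_centralizer_singleton_iff.1 y.2, mul_smul, mul_smul, e1]
    exact Subtype.ext (eq_of_smul_eq_smul (α := W) fun w => by rw [← hT, e2, hT])

theorem sq_le_pow : ∀ p, 2 ≤ p → p - 1 + (p ^ 2 - 1) ≤ 3 ^ (p - 1) + 1 := by
  intro p hp
  induction p, hp using Nat.le_induction with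
  | base => norm_num
  | succ p hp ih =>
    obtain ⟨k, rfl⟩ := Nat.exists_eq_add_of_le' hp
    rw [show k + 2 + 1 - 1 = k + 2 - 1 + 1 by omega, pow_succ 3]
    ring_nf at ih ⊢
    omega

theorem ks_two {X W : Type*} [Group X] [Finite X] [AddCommGroup W] [Finite W]
    [DistribMulAction X W] [FaithfulSMul X W] {p : ℕ} (hp : p.Prime) (hV : ∀ w : W, p • w = 0)
    (h : Nat.card W = p ^ 2) : KS X (3 ^ (p - 1)) := fun H => by
  have := Fact.mk hp
  let _ : Module (ZMod p) W := AddCommGroup.zmodModule hV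
  have h1 := kk_two (Y := H) h
  have := sq_le_pow p hp.two_le
  omega

/-- The bound for irreducible modules of order `p ^ r`. -/
def IB (p r B : ℕ) : Prop :=
  ∀ (X W : Type u) [Group X] [Finite X] [AddCommGroup W] [Finite W] [DistribMulAction X W]
    [FaithfulSMul X W], Group.IsSolvable X → Irr X W → (∀ w : W, p • w = 0) →
    Nat.card W = p ^ r → KS X B

theorem ib_step {p r B : ℕ} (hp : p.Prime) (hr : r ≠ 0)
    (hq : ∀ (G : Type u) [Group G] [Finite G] (Z N : Subgroup G) (f d e : ℕ),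
      Group.IsSolvable G → f * d = r → QD Z N p f d e → KS G B)
    (hi : ∀ s m, 1 ≤ s → 2 ≤ m → s * m ≤ r → ∃ b, IB.{u} p s b ∧ b ^ m * 3 ^ (m - 1) ≤ B) :
    IB.{u} p r B := by
  intro X W _ _ _ _ _ _ hs h hV hW
  have := Finite.one_lt_card_iff_nontrivial.1 (hW ▸ Nat.one_lt_pow hr hp.one_lt)
  by_cases h1 : QPrim X W
  · obtain ⟨G, _, _, j, Z, N, f, d, e, hG, hj, h2, h3⟩ := step_qp hs h h1 hp hV hW
    exact (hq G Z N f d e hG h2 h3).of_inj j hj
  obtain ⟨H, U, Y, _, _, _, _, f, hH, hY, h2, h3, h4, h5, -⟩ := step_imp hs h h1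
  have hU : ∀ w : U, p • w = 0 := fun w => Subtype.ext (hV w)
  obtain ⟨s, hs'⟩ := card_eq_pow hp hU
  rw [hs', hW, ← pow_mul, Nat.pow_le_pow_iff_right hp.one_lt] at h4
  obtain ⟨b, hb, hb'⟩ := hi s H.index (Nat.pos_of_ne_zero (by rintro rfl; simp [hs'] at h3))
    (one_lt_index_of_ne_top hH.1) h4
  exact ((ks_core hs hH f (hb Y U hY h2 hU hs') ⊥ fun k hk => by rw [h5 k hk]; rfl).of_bot).mono hb'

theorem ib_one {p : ℕ} (hp : p.Prime) : IB.{u} p 1 (p - 1) := fun X W _ _ _ _ _ _ _ _ hV hW =>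
  ks_of_card (Nat.le_of_dvd (by have := hp.two_le; omega) (by simpa using card_dvd_gl hp hV hW))

theorem ib_two {p : ℕ} (hp : p.Prime) : IB.{u} p 2 (3 ^ (p - 1)) :=
  fun _ _ _ _ _ _ _ _ _ _ hV hW => ks_two hp hV hW

theorem qd_ks {G : Type u} [Group G] [Finite G] {Z N : Subgroup G} {p f d e r B : ℕ}
    (hs : Group.IsSolvable G) (hr : f * d = r) (h : QD Z N p f d e) (h0 : r ≠ 0) {P : ℕ → ℕ → Prop}
    (H : ∀ f < r + 1, ∀ d < r + 1, ∀ e < r + 1, f * d = r → e ≤ d →
      (e ≠ 1 → ¬ e.Coprime (p ^ f - 1)) → P f e ∨ f * (e ^ 8 * (p ^ f - 1)) ≤ B)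
    (hP : P f e → KS G B) : KS G B := by
  have h1 : f ≤ r := Nat.le_of_dvd (Nat.pos_of_ne_zero h0) ⟨d, hr.symm⟩
  have h2 : d ≤ r := Nat.le_of_dvd (Nat.pos_of_ne_zero h0) ⟨f, by rw [← hr, mul_comm]⟩
  have h3 := h.le
  rcases H f (by omega) d (by omega) e (by omega) hr h3 h.cop with h4 | h4
  · exact hP h4
  · exact ks_of_card ((h.card_le hs).trans h4)

theorem ib_2_3 : IB.{u} 2 3 27 := by
  refine ib_step Nat.prime_two (by decide) (fun G _ _ Z N f d e hs hr h =>
    qd_ks hs hr h (by decide) (P := fun _ _ => False) (by decide) False.elim) fun s m h1 h2 h3 => ?_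
  obtain rfl : s = 1 := by nlinarith
  refine ⟨1, ib_one Nat.prime_two, ?_⟩
  have : m ≤ 3 := by omega
  interval_cases m <;> decide

theorem ks_gamma {G : Type u} [Group G] [Finite G] {Z N : Subgroup G} {d : ℕ}
    (h : QD Z N 2 4 d 1) : KS G 27 := by
  intro Y
  have := h.ns.zn
  have := h.ns.cyc
  have hC : centralizer (Z : Set G) ≤ Z := fun g hg => h.ns.n2 g fun a ha =>
    hg a (relIndex_eq_one.1 h.rel ha)
  have hZ : Z ≤ centralizer (Z : Set G) := fun a ha => h.ns.cent a (h.ns.le ha)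
  have : IsMulCommutative (Z.subgroupOf Y) :=
    ⟨⟨fun a b => Subtype.ext (Subtype.ext (hZ b.2 _ a.2))⟩⟩
  have h1 := H34.TL.count_bound (Z.subgroupOf Y) (c := 5) fun g hg => by
    have e1 : Nat.card (Z.subgroupOf Y ⊓ centralizer ({g} : Set Y) : Subgroup Y) ≤
        Nat.card (Z ⊓ centralizer ({(g : G)} : Set G) : Subgroup G) :=
      Nat.card_le_card_of_injective (fun x => ⟨x.1.1, x.2.1, mem_centralizer_singleton_iff.2
        (congrArg Subtype.val (mem_centralizer_singleton_iff.1 x.2.2))⟩)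
        fun x y e => Subtype.ext (Subtype.ext (congrArg (fun z => z.1) e :))
    have e2 := card_dvd_of_le (inf_le_left : Z ⊓ centralizer ({(g : G)} : Set G) ≤ Z)
    have e3 : Nat.card (Z ⊓ centralizer ({(g : G)} : Set G) : Subgroup G) ≠ Nat.card Z := fun e =>
      hg (hC fun z hz => mem_centralizer_singleton_iff.1
        ((eq_of_le_of_card_ge inf_le_left e.ge).ge hz).2)
    rw [h.card] at e2 e3
    exact e1.trans ((by decide : ∀ n ∈ Nat.divisors 15, n ≠ 15 → n ≤ 5) _
      (Nat.mem_divisors.2 ⟨e2, by decide⟩) e3)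
  have h2 : Nat.card (Z.subgroupOf Y) ≤ 15 :=
    (Nat.le_of_dvd Nat.card_pos (card_comap_dvd_of_injective Z _ Y.subtype_injective)).trans
      h.card.le
  have h3 : (Z.subgroupOf Y).index ≤ 4 :=
    (Nat.le_of_dvd (Nat.pos_of_ne_zero index_ne_zero_of_finite)
      (relIndex_dvd_index_of_normal Z Y)).trans (le_antisymm hC hZ ▸ h.idx)
  have h4 : 0 < (Z.subgroupOf Y).index := Nat.pos_of_ne_zero index_ne_zero_of_finite
  change Nat.card (ConjClasses Y) ≤ 27
  generalize (Z.subgroupOf Y).index = m at *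
  interval_cases m <;> omega

theorem ib_2_4 : IB.{u} 2 4 27 := by
  refine ib_step Nat.prime_two (by decide) (fun G _ _ Z N f d e hs hr h =>
    qd_ks hs hr h (by decide) (P := fun f e => f = 4 ∧ e = 1) (by decide) ?_) fun s m h1 h2 h3 => ?_
  · rintro ⟨rfl, rfl⟩
    exact ks_gamma h
  have : s ≤ 2 := by nlinarith
  have : m ≤ 4 := by nlinarith
  interval_cases s
  · exact ⟨1, ib_one Nat.prime_two, by interval_cases m <;> decide⟩
  · exact ⟨_, ib_two Nat.prime_two, by interval_cases m <;> omega⟩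

theorem ib_2_6 : IB.{u} 2 6 (3 ^ 7) := by
  refine ib_step Nat.prime_two (by decide) (fun G _ _ Z N f d e hs hr h =>
    qd_ks hs hr h (by decide) (P := fun f e => f = 2 ∧ e = 3) (by decide) ?_) fun s m h1 h2 h3 => ?_
  · rintro ⟨rfl, rfl⟩
    obtain ⟨X, W, _, _, _, _, _, _, φ, -, -, -, h1, h2, h3⟩ := ns_step hs h.ns
    have := h.ns.nn
    exact (ks_ext N (ks_of_card h.card_N.le) (h.ks_N φ h2 (ks_two Nat.prime_three
      (h3 3 (ns_bound hs h.ns h.rel).2.1) (h1.trans h.rel)))).mono (by decide)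
  have : s ≤ 3 := by nlinarith
  have : m ≤ 6 := by nlinarith
  interval_cases s
  · exact ⟨1, ib_one Nat.prime_two, by interval_cases m <;> decide⟩
  · exact ⟨_, ib_two Nat.prime_two, by interval_cases m <;> omega⟩
  · exact ⟨_, ib_2_3, by interval_cases m <;> omega⟩

theorem ib_2_8 : IB.{u} 2 8 (3 ^ 15) := by
  refine ib_step Nat.prime_two (by decide) (fun G _ _ Z N f d e hs hr h =>
    qd_ks hs hr h (by decide) (P := fun _ _ => False) (by decide) False.elim) fun s m h1 h2 h3 => ?_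
  have : s ≤ 4 := by nlinarith
  have : m ≤ 8 := by nlinarith
  interval_cases s
  · exact ⟨1, ib_one Nat.prime_two, by interval_cases m <;> decide⟩
  · exact ⟨_, ib_two Nat.prime_two, by interval_cases m <;> omega⟩
  · exact ⟨_, ib_2_3, by interval_cases m <;> omega⟩
  · exact ⟨_, ib_2_4, by interval_cases m <;> omega⟩

theorem ib_3_4 : IB.{u} 3 4 (3 ^ 8) := by
  refine ib_step Nat.prime_three (by decide) (fun G _ _ Z N f d e hs hr h =>
    qd_ks hs hr h (by decide) (P := fun f e => f = 1 ∧ e = 4) (by decide) ?_) fun s m h1 h2 h3 => ?_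
  · rintro ⟨rfl, rfl⟩
    have h1 : (centralizer (Z : Set G)).index = 1 :=
      le_antisymm h.idx (Nat.pos_of_ne_zero index_ne_zero_of_finite)
    have h2 := ((ns_bound hs h.ns h.rel).2.2 fun z hz g =>
      (index_eq_one.1 h1).ge (mem_top g) z hz).2.2.1 rfl
    refine ks_of_card ?_
    rw [← N.index_mul_card, h.card_N]
    omega
  have : s ≤ 2 := by nlinarith
  have : m ≤ 4 := by nlinarith
  interval_cases s
  · exact ⟨2, ib_one Nat.prime_three, by interval_cases m <;> decide⟩
  · exact ⟨_, ib_two Nat.prime_three, by interval_cases m <;> omega⟩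

theorem pow_six_le : ∀ e, 17 ≤ e → (e * e) ^ 3 ≤ 3 ^ (e - 1) := by
  intro e he
  induction e, he using Nat.le_induction with
  | base => norm_num
  | succ m hm ih =>
    obtain ⟨k, rfl⟩ := Nat.exists_eq_add_of_le' hm
    rw [show k + 17 + 1 - 1 = k + 17 - 1 + 1 by omega, pow_succ 3]
    refine le_trans ?_ (Nat.mul_le_mul_right 3 ih)
    ring_nf
    omega

theorem sq_bound (n : ℕ) : ∀ (X W : Type u) [Group X] [Finite X] [AddCommGroup W] [Finite W]
    [DistribMulAction X W] [FaithfulSMul X W] (e : ℕ), Nat.card W = n → n = e * e →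
    Group.IsSolvable X → CR X W → Sq X W → KS X (3 ^ (e - 1)) := by
  induction n using Nat.strong_induction_on with
  | _ n ih =>
  intro X W _ _ _ _ _ _ e hW he hs hc hq
  by_cases hi : Irr X W
  · rcases le_or_gt 17 e with h | h
    · exact ks_of_card ((card_le_of_base (seress hs hc)).trans
        (by rw [hW, he]; exact pow_six_le e h))
    rcases subsingleton_or_nontrivial W with h0 | h0
    · have : Subsingleton X := ⟨fun a b => eq_of_smul_eq_smul (α := W) fun _ => Subsingleton.elim _ _⟩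
      exact ks_of_card (Nat.card_unique.le.trans (Nat.one_le_pow _ _ (by decide)))
    obtain ⟨p, hp, -, hV⟩ := hi.exists_prime
    obtain ⟨r, hr⟩ := card_eq_pow hp hV
    obtain ⟨k, -, rfl⟩ := (Nat.dvd_prime_pow hp).1 ⟨e, by rw [← hr, hW, he]⟩
    rw [he, ← pow_add] at hW
    have h1 := Finite.one_lt_card (α := W)
    have h2 := hp.two_le
    have hk : k < 5 := by
      by_contra h5
      have := (Nat.pow_le_pow_left h2 5).trans (Nat.pow_le_pow_right hp.pos (not_lt.1 h5))
      omega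
    have hp5 : 2 ≤ k → p < 5 := fun h3 => by
      by_contra h5
      have := (Nat.pow_le_pow_left (not_lt.1 h5) 2).trans (Nat.pow_le_pow_right hp.pos h3)
      omega
    interval_cases k
    · simp [hW] at h1
    · simpa using ks_two hp hV hW
    all_goals
      have := hp5 (by decide)
      interval_cases p <;> first | omega | exact absurd hp (by decide) | skip
    · exact ib_2_4 X W hs hi hV hW
    · exact ib_3_4 X W hs hi hV hW
    · exact ib_2_6 X W hs hi hV hW
    · exact ib_2_8 X W hs hi hV hW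
  obtain ⟨U, U', hU, hU', h1, h2, h3, h4⟩ := step_red hc hi
  obtain ⟨Y, _, _, _, _, f, a1, a2, a3, a4⟩ := sub_faith hs hc hU
  obtain ⟨Y', _, _, _, _, f', b1, b2, b3, b4⟩ := sub_faith hs hc hU'
  obtain ⟨a, ha⟩ := hq U hU
  obtain ⟨b, hb⟩ := hq U' hU'
  have h5 := ks_prod (ih _ (by nlinarith) Y U a rfl ha a1 a2 (a3 hq))
    (ih _ (by nlinarith) Y' U' b rfl hb b1 b2 (b3 hq))
  obtain rfl : e = a * b := Nat.mul_self_inj.1 (by rw [← he, ← hW, ← h3, ha, hb]; ring)
  exact (h5.of_inj (f.prod f') ((injective_iff_map_eq_one _).2 fun g hg =>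
    h4 g (a4 g (congrArg Prod.fst hg)) (b4 g (congrArg Prod.snd hg)))).mono
    (pow_prod_le (by nlinarith) (by nlinarith))

/-- The symplectic type normal subgroup. -/
theorem ns_ks {G : Type u} [Group G] [Finite G] (hs : Group.IsSolvable G) {Z N : Subgroup G}
    (h : NS Z N) {e : ℕ} (he : Z.relIndex N = e * e) :
    ∃ (X : Type u) (_ : Group X) (_ : Finite X) (φ : G →* X),
      φ.ker ⊓ centralizer (Z : Set G) ≤ N ∧ KS X (3 ^ (e - 1)) := by
  obtain ⟨X, W, _, _, _, _, _, _, φ, h1, h2, h3, h4, h5, -⟩ := ns_step hs h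
  exact ⟨X, _, ‹_›, φ, h5, sq_bound _ X W e rfl (h4.trans he) h1 h2 h3⟩

end H14.Ks
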