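import Cfsg.Agent.H14.KsKit
import Cfsg.Agent.H10.KgNS

/-! Reduction steps for solvable groups acting on finite modules. -/

set_option autoImplicit false

namespace H14.Ks

open Subgroup H10.Kg Cfsg H33.Solv
open scoped commutatorElement

universe u

/-- All invariant subgroups have square order. -/
def Sq (X W : Type*) [Group X] [AddCommGroup W] [DistribMulAction X W] : Prop :=
  ∀ U : AddSubgroup W, Inv X U → IsSquare (Nat.card U)

section transfer

variable {G X W : Type*} [Group G] [Group X] [AddCommGroup W] [DistribMulAction G W]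
  [DistribMulAction X W] {f : G →* X} (hf : Function.Surjective f)
  (hfa : ∀ g (w : W), f g • w = g • w)
include hf hfa

theorem inv_iff {U : AddSubgroup W} : Inv X U ↔ Inv G U :=
  ⟨fun h g w hw => hfa g w ▸ h _ w hw, fun h x w hw => by
    obtain ⟨g, rfl⟩ := hf x
    exact hfa g w ▸ h g w hw⟩

theorem cr_of (h : CR G W) : CR X W := fun U hU =>
  let ⟨U', h1, h2⟩ := h U ((inv_iff hf hfa).1 hU)
  ⟨U', (inv_iff hf hfa).2 h1, h2⟩

theorem irr_of (h : Irr G W) : Irr X W := fun U hU => h U ((inv_iff hf hfa).1 hU)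

theorem sq_of (h : Sq G W) : Sq X W := fun U hU => h U ((inv_iff hf hfa).1 hU)

end transfer

section steps

variable {X W : Type u} [Group X] [Finite X] [AddCommGroup W] [Finite W] [DistribMulAction X W]

theorem Sq.sub (h : Sq X W) {U : AddSubgroup W} (hU : Inv X U) : @Sq X U _ _ (subAct U hU) :=
  fun B hB => by
    rw [← AddSubgroup.card_map_of_injective U.subtype_injective]
    refine h _ ?_
    rintro g _ ⟨v, hv, rfl⟩
    exact ⟨_, hB g v hv, rfl⟩

theorem sub_faith (hs : Group.IsSolvable X) (hc : CR X W) {U : AddSubgroup W} (hU : Inv X U) :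
    ∃ (Y : Type u) (_ : Group Y) (_ : Finite Y) (_ : DistribMulAction Y U) (_ : FaithfulSMul Y U)
      (f : X →* Y), Group.IsSolvable Y ∧ CR Y U ∧ (Sq X W → Sq Y U) ∧
        ∀ g, f g = 1 → ∀ u ∈ U, g • u = u := by
  let _ := subAct U hU
  obtain ⟨Y, _, _, _, _, f, hY, hf, hfa⟩ := faith X U hs
  refine ⟨Y, _, ‹_›, _, ‹_›, f, hY, cr_of hf hfa (hc.sub hU), fun h => sq_of hf hfa (h.sub hU),
    fun g hg u hu => ?_⟩
  have := hfa g ⟨u, hu⟩
  rw [hg, one_smul] at this
  exact (congrArg Subtype.val this).symm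

variable [FaithfulSMul X W]

theorem step_red (hc : CR X W) (hi : ¬ Irr X W) :
    ∃ U U' : AddSubgroup W, Inv X U ∧ Inv X U' ∧ 1 < Nat.card U ∧ 1 < Nat.card U' ∧
      Nat.card U * Nat.card U' = Nat.card W ∧
      ∀ g : X, (∀ u ∈ U, g • u = u) → (∀ u ∈ U', g • u = u) → g = 1 := by
  simp only [Irr, not_forall, not_or] at hi
  obtain ⟨U, hU, h1, h2⟩ := hi
  obtain ⟨U', hU', h3, h4⟩ := hc U hU
  refine ⟨U, U', hU, hU', (AddSubgroup.one_lt_card_iff_ne_bot U).2 h1,
    (AddSubgroup.one_lt_card_iff_ne_bot U').2 fun e => h2 (by rwa [e, sup_bot_eq] at h4),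
    ?_,
    fun g h5 h6 => eq_of_smul_eq_smul (α := W) fun w => ?_⟩
  · rw [← Nat.card_prod]
    refine Nat.card_eq_of_bijective (fun x : U × U' => (x.1 : W) + x.2) ⟨fun x y e => ?_, fun w => ?_⟩
    · have e1 : (x.1 : W) - y.1 = y.2 - x.2 := by
        rw [sub_eq_sub_iff_add_eq_add, add_comm (y.2 : W)]; exact e
      have e2 : (x.1 : W) - y.1 ∈ U ⊓ U' :=
        AddSubgroup.mem_inf.2 ⟨sub_mem x.1.2 y.1.2, e1 ▸ sub_mem y.2.2 x.2.2⟩
      rw [h3, AddSubgroup.mem_bot] at e2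
      exact Prod.ext (Subtype.ext (sub_eq_zero.1 e2)) (Subtype.ext (sub_eq_zero.1 (e1 ▸ e2)).symm)
    · obtain ⟨a, ha, b, hb, rfl⟩ := AddSubgroup.mem_sup.1 (h4.ge (AddSubgroup.mem_top w))
      exact ⟨(⟨a, ha⟩, ⟨b, hb⟩), rfl⟩
  · obtain ⟨a, ha, b, hb, rfl⟩ := AddSubgroup.mem_sup.1 (h4.ge (AddSubgroup.mem_top w))
    rw [smul_add, h5 a ha, h6 b hb, one_smul]

theorem step_imp (hs : Group.IsSolvable X) (hi : Irr X W) (hq : ¬ QPrim X W) :
    ∃ (H : Subgroup X) (U : AddSubgroup W) (Y : Type u) (_ : Group Y) (_ : Finite Y)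
      (_ : DistribMulAction Y U) (_ : FaithfulSMul Y U) (f : H →* Y), IsCoatom H ∧
      Group.IsSolvable Y ∧ Irr Y U ∧ 1 < Nat.card U ∧ Nat.card U ^ H.index ≤ Nat.card W ∧
      (∀ k : H.normalCore, (∀ g, f (cjc H g k) = 1) → k = 1) ∧
      ∀ u : U, ∃ v : W, ∀ g, ∃ y : Y, ∀ k : H.normalCore, (k : X) • v = v →
        f (cjc H g k) • y • u = y • u := by
  obtain ⟨e, H, hH, h0, h1, h2, h3⟩ := coarsen hi hq
  let _ := subAct _ (inv_range h2)
  obtain ⟨Y, _, _, _, _, f, hY, hf, hfa⟩ := faith H e.range inferInstance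
  have hne : e.range ≠ ⊥ := mt AddMonoidHom.range_eq_bot_iff.1 h0
  refine ⟨H, e.range, Y, _, ‹_›, _, ‹_›, f, hH, hY, irr_of hf hfa (irr_range hi h1 h2 h3),
    (AddSubgroup.one_lt_card_iff_ne_bot _).2 hne, pow_le_card h1 h3, fun k hk =>
      Subtype.ext (eq_of_smul_eq_smul (α := W) fun v => ?_), fun u => ?_⟩
  swap
  · have := Fintype.ofFinite (X ⧸ H)
    refine ⟨∑ ω : X ⧸ H, ω.out • (u : W), fun g => ?_⟩
    obtain ⟨c, hc⟩ := QuotientGroup.mk_out_eq_mul H g
    refine ⟨f c, fun k hk => Subtype.ext ?_⟩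
    have e1 := coord h1 h3 (fun _ => u) (g : X ⧸ H)
    have e2 : (c : X) • (u : W) = e (g⁻¹ • ∑ ω : X ⧸ H, ω.out • (u : W)) := by
      refine (congrArg ((c : X) • ·) e1.symm).trans ?_
      rw [h2 c c.2, hc, smul_smul]
      congr 2
      group
    rw [hfa, hfa]
    change (g⁻¹ * k * g⁻¹⁻¹) • (c : X) • (u : W) = (c : X) • (u : W)
    rw [e2, h2 _ (k.2 g⁻¹), smul_smul, mul_assoc, inv_mul_cancel, mul_one, mul_smul, hk]
  have : v ∈ fix W (k : X) := by
    rw [closure_eq_top hi hne (U := fix W (k : X)) fun g w hw => ?_]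
    · trivial
    have := hfa (cjc H g k) ⟨w, hw⟩
    rw [hk, one_smul] at this
    have := congrArg (fun x : e.range => g • (x : W)) this
    change g • w = g • (g⁻¹ * k * g⁻¹⁻¹) • w at this
    rw [mem_fix]
    simpa [mul_smul] using this.symm
  exact (mem_fix.1 this).trans (one_smul _ _).symm

end steps

theorem ns_step {G : Type u} [Group G] [Finite G] (hs : Group.IsSolvable G) {Z N : Subgroup G}
    (h : NS Z N) : ∃ (X W : Type u) (_ : Group X) (_ : Finite X) (_ : AddCommGroup W)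
      (_ : Finite W) (_ : DistribMulAction X W) (_ : FaithfulSMul X W) (f : G →* X),
      Group.IsSolvable X ∧ CR X W ∧ Sq X W ∧ Nat.card W = Z.relIndex N ∧
      f.ker ⊓ centralizer (Z : Set G) ≤ N ∧
      ∀ n : ℕ, (∀ a ∈ N, a ^ n ∈ Z) → ∀ w : W, n • w = 0 := by
  have := h.zn
  have := h.nn
  obtain ⟨W, _, π, hπ⟩ := exists_sec h.comm fun a _ z hz => h.zn.conj_mem z hz a
  obtain ⟨_, hact⟩ := hπ.exists_act
  have := hπ.finite
  obtain ⟨X, _, _, _, _, f, hX, hf, hfa⟩ := faith G W hs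
  refine ⟨X, W, _, ‹_›, _, ‹_›, _, ‹_›, f, hX, cr_of hf hfa (h.cr h.nn h.le le_rfl hπ hact),
    sq_of hf hfa fun U hU => ?_, hπ.card, fun g hg => h.n3 hg.2 fun a ha => ?_, fun n hr w => ?_⟩
  · have h1 : Z ≤ hπ.pre U := fun z hz =>
      ⟨h.le hz, by rw [(hπ.zero z (h.le hz)).2 hz]; exact zero_mem U⟩
    have h2 : (hπ.pre U).Normal :=
      ⟨fun a ha g => ⟨h.nn.conj_mem a ha.1 g, hact g a ha.1 ▸ hU g _ ha.2⟩⟩
    rw [hπ.card_pre]
    exact h.sq_index h1 (fun a ha => ha.1) fun a ha e =>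
      h.n1 h2 h1 (fun a ha => ha.1) ha fun b hb => (e b hb).symm
  · have := hfa g (π a)
    rw [show f g = 1 from hg.1, one_smul, hact g a ha, hπ.eq_iff ha (h.nn.conj_mem a ha g)] at this
    have := h.zn.conj_mem _ this a
    rwa [show a * (a⁻¹ * (g * a * g⁻¹)) * a⁻¹ = ⁅g, a⁆ by rw [commutatorElement_def]; group] at this
  · obtain ⟨a, ha, rfl⟩ := hπ.surj w
    rw [← hπ.pow ha, (hπ.zero _ (pow_mem ha _)).2 (hr a ha)]

theorem ns_nilp {G : Type*} [Group G] {Z N : Subgroup G} (h : NS Z N) : Group.IsNilpotent N := by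
  have : (Z.subgroupOf N).Normal := h.zn.subgroupOf N
  let _ : CommGroup (N ⧸ Z.subgroupOf N) :=
    { (inferInstance : Group (N ⧸ Z.subgroupOf N)) with
      mul_comm := fun a b => by
        obtain ⟨a, rfl⟩ := QuotientGroup.mk_surjective a
        obtain ⟨b, rfl⟩ := QuotientGroup.mk_surjective b
        rw [← commutatorElement_eq_one_iff_mul_comm]
        exact (QuotientGroup.eq_one_iff ⁅a, b⁆).2 (h.comm a a.2 b b.2) }
  refine Subgroup.isNilpotent_of_ker_le_center (QuotientGroup.mk' (Z.subgroupOf N)) fun z hz => ?_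
  rw [QuotientGroup.ker_mk'] at hz
  exact mem_center_iff.2 fun a => Subtype.ext (h.cent a a.2 z hz).symm

/-- The data of the quasi-primitive case. -/
structure QD {G : Type*} [Group G] (Z N : Subgroup G) (p f d e : ℕ) : Prop where
  ns : NS Z N
  card : Nat.card Z = p ^ f - 1
  idx : (centralizer (Z : Set G)).index ≤ f
  rel : Z.relIndex N = e * e
  pos : 1 ≤ e
  le : e ≤ d
  cop : e ≠ 1 → ¬ e.Coprime (p ^ f - 1)

theorem step_qp {X W : Type u} [Group X] [Finite X] [AddCommGroup W] [Finite W] [Nontrivial W]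
    [DistribMulAction X W] [FaithfulSMul X W] (hs : Group.IsSolvable X) (hi : Irr X W)
    (hq : QPrim X W) {p r : ℕ} (hp : p.Prime) (hV : ∀ w : W, p • w = 0) (hr : Nat.card W = p ^ r) :
    ∃ (G : Type u) (_ : Group G) (_ : Finite G) (j : X →* G) (Z N : Subgroup G) (f d e : ℕ),
      Group.IsSolvable G ∧ Function.Injective j ∧ f * d = r ∧ QD Z N p f d e := by
  obtain ⟨K, G, _, _, _, _, _, _, _, hG, ⟨s⟩, hj, -⟩ := exists_scal hs hi hq
  choose j0 hj using hj
  let j : X →* G := MonoidHom.mk' j0 fun a b => eq_of_smul_eq_smul (α := W) fun v => by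
    rw [mul_smul, ← hj, ← hj, ← hj, mul_smul]
  have hinj : Function.Injective j := fun a b e => eq_of_smul_eq_smul (α := W) fun v => by
    rw [hj, hj, show j0 a = j0 b from e]
  obtain ⟨N, h⟩ := s.exists_ns hG
  obtain ⟨e, he⟩ := h.sq_index h.le le_rfl fun a _ hc => h.n2 a fun b hb => (hc b hb).symm
  obtain ⟨-, b2, -⟩ := ns_bound hG h he
  obtain ⟨f, hf⟩ := card_eq_pow (V := K) hp fun c => by
    obtain ⟨v, h0⟩ := exists_ne (0 : W)
    exact smul_left_injective K h0 (by beta_reduce; rw [smul_assoc, hV, zero_smul])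
  have i3 : Nat.card W = p ^ (f * Module.finrank K W) := by
    rw [Module.natCard_eq_pow_finrank (K := K), hf, pow_mul]
  have i4 : Nat.card s.ι.range = p ^ f - 1 := by
    rw [← hf, ← Nat.card_units, Nat.card_congr (MonoidHom.ofInjective s.inj).toEquiv]
  refine ⟨G, _, ‹_›, j, _, N, f, _, e, hG, hinj, Nat.pow_right_injective hp.two_le (i3.symm.trans hr),
    h, i4, scal_index s hp hV hf, he, Nat.pos_of_ne_zero fun h0 =>
      (index_ne_zero_of_finite : s.ι.range.relIndex N ≠ 0) (he.trans (by rw [h0])),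
    Nat.mul_self_le_mul_self_iff.1 ((he ▸ scal_sq s h).trans_eq (sq _)), fun h1 hc => h1 ?_⟩
  have h2 : N ≤ s.ι.range := fun a ha => h.n2 a fun b hb => by
    rw [← commutatorElement_eq_one_iff_mul_comm, ← orderOf_eq_one_iff]
    exact Nat.eq_one_of_dvd_coprimes hc (orderOf_dvd_of_pow_eq_one (h.comm_pow hb ha (b2 b hb)))
      (i4 ▸ orderOf_dvd_natCard _ (h.comm b hb a ha))
  rw [relIndex_eq_one.2 h2] at he
  exact Nat.eq_one_of_mul_eq_one_left he.symm

namespace QD

variable {G : Type u} [Group G] [Finite G] {Z N : Subgroup G} {p f d e : ℕ} (h : QD Z N p f d e)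
include h

theorem card_N : Nat.card N = e * e * (p ^ f - 1) := by
  rw [← h.rel, ← h.card, ← Nat.card_congr (subgroupOfEquivOfLe h.ns.le).toEquiv]
  exact (Z.subgroupOf N).index_mul_card.symm

theorem card_eq : Nat.card G = (centralizer (Z : Set G)).index *
    (N.relIndex (centralizer (Z : Set G)) * (e * e * (p ^ f - 1))) := by
  have hle : N ≤ centralizer (Z : Set G) := fun a ha => h.ns.cent a ha
  rw [← h.card_N, ← mul_assoc, mul_comm _ (N.relIndex _), relIndex_mul_index hle, index_mul_card]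

theorem card_le (hs : Group.IsSolvable G) : Nat.card G ≤ f * (e ^ 8 * (p ^ f - 1)) := by
  rw [h.card_eq]
  refine Nat.mul_le_mul h.idx ((Nat.mul_le_mul_right _ (ns_bound hs h.ns h.rel).1).trans_eq ?_)
  ring

/-- The quotient by `N` from the action on `N / Z`. -/
theorem ks_N {X : Type*} [Group X] [Finite X] (φ : G →* X)
    (hφ : φ.ker ⊓ centralizer (Z : Set G) ≤ N) {b : ℕ} (hb : KS X b) :
    haveI := h.ns.nn; KS (G ⧸ N) (b * f) := by
  have := h.ns.nn
  have := h.ns.zn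
  refine ks_tower N (centralizer (Z : Set G)) (ks_quot (φ.comp (Subgroup.subtype _))
    (fun x hx => hφ ⟨hx, x.2⟩) hb) (ks_of_card h.idx)

end QD

end H14.Ks
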