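import Cfsg.Agent.H42.PnSpec

/-! PN tower (S3399), slot ADJ: two blocks do not differ in exactly one point. -/

set_option autoImplicit false
set_option linter.unusedSectionVars false

namespace H14.PnAdj
open Equiv MulAction Pointwise H2.Ln H42.PN

variable {α : Type} [Fintype α] [DecidableEq α] {G K : Subgroup (Perm α)}

theorem bl_smul {B : Finset α} (hB : B ∈ bl G K) {g : Perm α} (hg : g ∈ G) : g • B ∈ bl G K := by
  obtain ⟨h, hh, rfl⟩ := mem_bl.1 hB
  exact mem_bl.2 ⟨g * h, G.mul_mem hg hh, mul_smul _ _ _⟩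

theorem bl_card {B : Finset α} (hB : B ∈ bl G K) : B.card = (fp K).card := by
  obtain ⟨h, -, rfl⟩ := mem_bl.1 hB
  exact Finset.card_smul_finset _ _

theorem fp_mem : fp K ∈ bl G K := mem_bl.2 ⟨1, G.one_mem, one_smul _ _⟩

theorem smul_ex (g : Perm α) (B : Finset α) (s a : α) :
    g • insert s (B.erase a) = insert (g s) ((g • B).erase (g a)) := by
  ext u
  obtain ⟨v, rfl⟩ := g.surjective u
  simp only [app_mem_sm, Finset.mem_insert, Finset.mem_erase, ne_eq, EmbeddingLike.apply_eq_iff_eq]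

open Classical in
/-- A block together with the points that can be exchanged into it. -/
noncomputable def zz (G K : Subgroup (Perm α)) (B : Finset α) : Finset α :=
  Finset.univ.filter fun s => s ∈ B ∨ ∃ a ∈ B, insert s (B.erase a) ∈ bl G K

theorem mem_zz {B : Finset α} {s : α} :
    s ∈ zz G K B ↔ s ∈ B ∨ ∃ a ∈ B, insert s (B.erase a) ∈ bl G K := by simp [zz]

theorem zz_smul (B : Finset α) {g : Perm α} (hg : g ∈ G) : zz G K (g • B) = g • zz G K B := by
  ext u
  obtain ⟨v, rfl⟩ := g.surjective u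
  rw [app_mem_sm, mem_zz, mem_zz, app_mem_sm]
  refine or_congr Iff.rfl ⟨?_, ?_⟩
  · rintro ⟨a, ha, h⟩
    obtain ⟨b, rfl⟩ := g.surjective a
    rw [← smul_ex] at h
    exact ⟨b, app_mem_sm.1 ha, by simpa using bl_smul h (G.inv_mem hg)⟩
  · rintro ⟨a, ha, h⟩
    exact ⟨g a, app_mem_sm.2 ha, smul_ex g B v a ▸ bl_smul h hg⟩

theorem ex_all (pt : Pt) (c : Cx G K) {B : Finset α} (hB : B ∈ bl G K) {s a b : α} (hs : s ∉ B)
    (ha : a ∈ B) (hb : b ∈ B) (h : insert s (B.erase a) ∈ bl G K) :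
    insert s (B.erase b) ∈ bl G K := by
  obtain ⟨x, hx, rfl⟩ := mem_bl.1 hB
  obtain ⟨s, rfl⟩ := x.surjective s
  obtain ⟨a, rfl⟩ := x.surjective a
  obtain ⟨b, rfl⟩ := x.surjective b
  rw [app_mem_sm] at hs ha hb
  rw [← smul_ex] at h ⊢
  obtain ⟨g, hg, g1, g2⟩ := pt α G K c s hs a ha b hb
  have h1 : insert s ((fp K).erase a) ∈ bl G K := by simpa using bl_smul h (G.inv_mem hx)
  have h2 := bl_smul h1 (mem_sw.1 hg).1
  rw [smul_ex, g1, g2, (mem_sw.1 hg).2] at h2
  exact bl_smul h2 hx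

theorem mem_zz' (pt : Pt) (c : Cx G K) {B : Finset α} (hB : B ∈ bl G K) {a : α} (ha : a ∈ B)
    (u : α) : u ∈ zz G K B ↔ u ∈ B.erase a ∨ insert u (B.erase a) ∈ bl G K := by
  rw [mem_zz]
  constructor
  · intro h
    by_cases hu : u ∈ B
    · by_cases e : u = a
      · right
        rwa [e, Finset.insert_erase ha]
      · exact Or.inl (Finset.mem_erase.2 ⟨e, hu⟩)
    · obtain ⟨b, hb, h⟩ := h.resolve_left hu
      exact Or.inr (ex_all pt c hB hu hb ha h)
  · rintro (h | h)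
    · exact Or.inl (Finset.mem_of_mem_erase h)
    · exact Or.inr ⟨a, ha, h⟩

theorem zz_ex (pt : Pt) (c : Cx G K) {B : Finset α} (hB : B ∈ bl G K) {s a : α} (hs : s ∉ B)
    (ha : a ∈ B) (h : insert s (B.erase a) ∈ bl G K) :
    zz G K (insert s (B.erase a)) = zz G K B := by
  ext u
  rw [mem_zz' pt c h (Finset.mem_insert_self _ _), mem_zz' pt c hB ha,
    Finset.erase_insert fun e => hs (Finset.mem_of_mem_erase e)]

theorem all_bl (h : ∀ B ∈ bl G K, ∀ s ∉ B, ∀ a ∈ B, insert s (B.erase a) ∈ bl G K) (T : Finset α)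
    (hT : T.card = (fp K).card) (n : ℕ) : ∀ B ∈ bl G K, (T \ B).card = n → T ∈ bl G K := by
  induction n with
  | zero =>
    intro B hB e
    rw [Finset.card_eq_zero, Finset.sdiff_eq_empty_iff_subset] at e
    rwa [Finset.eq_of_subset_of_card_le e (by rw [hT, bl_card hB])]
  | succ n ih =>
    intro B hB e
    obtain ⟨s, hs⟩ := Finset.card_pos.1 (show 0 < (T \ B).card by omega)
    have hs' := Finset.mem_sdiff.1 hs
    obtain ⟨a, ha, ha'⟩ : ∃ a ∈ B, a ∉ T := by
      by_contra hc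
      push Not at hc
      exact hs'.2 (Finset.eq_of_subset_of_card_le (fun a ha => hc a ha)
        (by rw [hT, bl_card hB]) ▸ hs'.1)
    refine ih _ (h B hB s hs'.2 a ha) ?_
    have : T \ insert s (B.erase a) = (T \ B).erase s := by
      ext u
      simp only [Finset.mem_sdiff, Finset.mem_insert, Finset.mem_erase]
      constructor
      · rintro ⟨h1, h2⟩
        exact ⟨fun e => h2 (Or.inl e), h1, fun e => h2 (Or.inr ⟨fun e' => ha' (e' ▸ h1), e⟩)⟩
      · rintro ⟨h1, h2, h3⟩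
        exact ⟨h2, fun e => e.elim h1 fun e => h3 e.2⟩
    rw [this, Finset.card_erase_of_mem hs, e]
    rfl

theorem jobAdj : Pt → Adj := by
  intro pt α _ _ G K c B hB e
  have hc := bl_card hB
  obtain ⟨a, ha⟩ : ∃ a, fp K \ B = {a} := Finset.card_eq_one.1 (by
    have := Finset.card_sdiff_add_card_inter (fp K) B
    omega)
  obtain ⟨s, hs⟩ : ∃ s, B \ fp K = {s} := Finset.card_eq_one.1 (by
    have := Finset.card_sdiff_add_card_inter B (fp K)
    rw [Finset.inter_comm] at this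
    omega)
  have a1 := Finset.mem_sdiff.1 (ha ▸ Finset.mem_singleton_self a)
  have s1 := Finset.mem_sdiff.1 (hs ▸ Finset.mem_singleton_self s)
  have hBe : B = insert s ((fp K).erase a) := by
    ext u
    have h1 := Finset.ext_iff.1 ha u
    have h2 := Finset.ext_iff.1 hs u
    simp only [Finset.mem_sdiff, Finset.mem_singleton, Finset.mem_insert, Finset.mem_erase] at *
    by_cases h3 : u ∈ fp K <;> by_cases h4 : u ∈ B <;> simp_all
  have hFZ : fp K ⊆ zz G K (fp K) := fun u hu => mem_zz.2 (Or.inl hu)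
  have hsw : ∀ g ∈ G, g • fp K = fp K → g ∈ sw G (zz G K (fp K)) := fun g hg h =>
    mem_sw.2 ⟨hg, by rw [← zz_smul _ hg, h]⟩
  by_cases hZ : zz G K (fp K) = Finset.univ
  · have h1 : (fp K)ᶜ ∈ bl G K := by
      refine all_bl (fun D hD t ht b hb => ?_) _ ?_ _ _ fp_mem rfl
      · have h2 : t ∈ zz G K D := by
          obtain ⟨g, hg, rfl⟩ := mem_bl.1 hD
          rw [zz_smul _ hg, hZ, mem_sm]
          exact Finset.mem_univ _
        exact ((mem_zz' pt c hD hb t).1 h2).resolve_left fun h => ht (Finset.mem_of_mem_erase h)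
      · rw [Finset.card_compl, c.half]
        omega
    obtain ⟨g, hg, h2⟩ := mem_bl.1 h1
    exact c.pro.nos ⟨a, a1.1⟩ hg h2
  · have key : ∀ u ∈ zz G K (fp K), ∃ g ∈ sw G (zz G K (fp K)), g⁻¹ u ∈ fp K := fun u hu => by
      by_cases h : u ∈ fp K
      · exact ⟨1, Subgroup.one_mem _, h⟩
      obtain ⟨b, hb, h1⟩ := (mem_zz.1 hu).resolve_left h
      obtain ⟨g, hg, h2⟩ := mem_bl.1 h1
      refine ⟨g, mem_sw.2 ⟨hg, by rw [← zz_smul _ hg, h2, zz_ex pt c fp_mem h hb h1]⟩, ?_⟩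
      rw [← mem_sm, h2]
      exact Finset.mem_insert_self _ _
    have S : Sit (sw G (zz G K (fp K))) K (zz G K (fp K)) :=
      ⟨fun k hk => hsw k (c.le hk) (sm_fp hk), c.pro.mono fun g hg => (mem_sw.1 hg).1,
        fun g hg => sm_eq_iff.1 (mem_sw.1 hg).2, fun u hu v hv => by
          obtain ⟨g, hg, h1⟩ := key u hu
          obtain ⟨g', hg', h2⟩ := key v hv
          obtain ⟨x, hx, -, h3⟩ := pt α G K c s s1.2 _ h1 _ h2
          exact ⟨g' * x * g⁻¹, Subgroup.mul_mem _ (Subgroup.mul_mem _ hg'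
            (hsw x (mem_sw.1 hx).1 (mem_sw.1 hx).2)) (Subgroup.inv_mem _ hg), by
              rw [Perm.mul_apply, Perm.mul_apply, h3]; simp⟩,
        s, mem_zz.2 (Or.inr ⟨a, a1.1, hBe ▸ hB⟩), s1.2⟩
    have h1 := (Finset.card_lt_iff_ne_univ _).2 hZ
    have h2 := c.loc α _ K _ S h1
    rw [Finset.inter_eq_right.2 hFZ] at h2
    have := c.half
    omega

end H14.PnAdj
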